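import Cfsg.Agent.H3.S8h
import Cfsg.Agent.H8.A8h

/-! Passing from the `Sym(8)` set-up to the `Alt(8)` set-up on a subgroup of index two. -/

set_option autoImplicit false

namespace H25.A8a

open Subgroup Equiv H3S

variable {G : Type*} [Group G] [Finite G] {φ : P →* G} {σ : G}

theorem sgn {α : Type*} [Fintype α] [DecidableEq α] (f : Perm α →* G) (N : Subgroup G)
    (hN : N.index = 2) {a b : α} (hab : a ≠ b) (h : f (swap a b) ∉ N) (x : Perm α) :
    f x ∈ N ↔ Perm.sign x = 1 := by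
  haveI : N.Normal := N.normal_of_index_eq_two hN
  have h1 : ∀ c d : α, c ≠ d → f (swap c d) ∉ N := by
    intro c d hcd h2
    obtain ⟨g, hg⟩ := isConj_iff.1 (Perm.isConj_swap hcd hab)
    apply h
    rw [← hg, map_mul, map_mul, map_inv]
    exact Normal.conj_mem inferInstance _ h2 _
  induction x using Perm.swap_induction_on with
  | one => simp
  | swap_mul g c d hcd ih =>
    rw [map_mul, mul_mem_iff_of_index_two hN, Perm.sign_mul, Perm.sign_swap hcd]
    have := h1 c d hcd
    have ih' : f g ∈ N ↔ Perm.sign g = 1 := ih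
    rcases Int.units_eq_one_or (Perm.sign g) with e | e <;> simp [e, this, ih']

theorem memN (h : Hy φ σ) (hc : σ * φ r0 * σ = φ r1) (N : Subgroup G) (hN : N.index = 2)
    (ht : φ t0 ∉ N) (x : P) : φ x ∈ N ↔ Perm.sign x.1 * Perm.sign x.2 = 1 := by
  haveI : N.Normal := N.normal_of_index_eq_two hN
  have si : σ⁻¹ = σ := inv_eq_of_mul_eq_one_right h.ss
  have a2 : ∀ b, φ (1, b) ∈ N ↔ Perm.sign b = 1 :=
    sgn (φ.comp (MonoidHom.inr _ _)) N hN (a := 3) (b := 4) (by decide) ht
  have a3 : φ r1 ∉ N := by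
    rw [r1, a2]; decide
  have a4 : φ r0 ∉ N := fun h2 => a3 (by
    rw [← hc]
    have := Normal.conj_mem (inferInstance : N.Normal) _ h2 σ
    rwa [si] at this)
  have a1 : ∀ a, φ (a, 1) ∈ N ↔ Perm.sign a = 1 :=
    sgn (φ.comp (MonoidHom.inl _ _)) N hN (a := 0) (b := 1) (by decide) a4
  obtain ⟨a, b⟩ := x
  have : ((a, b) : P) = (a, 1) * (1, b) := by simp
  rw [this, map_mul, mul_mem_iff_of_index_two hN, a1, a2]
  rcases Int.units_eq_one_or (Perm.sign a) with e | e <;>
    rcases Int.units_eq_one_or (Perm.sign b) with e' | e' <;> simp [e, e']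

theorem hy8 (h : Hy φ σ) (hc : σ * φ r0 * σ = φ r1) (N : Subgroup G) (hN : N.index = 2)
    (ht : φ t0 ∉ N) : ∃ (ι : H8A.L0 →* N) (s : N), H8A.Hy ι s := by
  haveI : N.Normal := N.normal_of_index_eq_two hN
  have hm := memN h hc N hN ht
  let ι : H8A.L0 →* N := (φ.comp H8A.L0.subtype).codRestrict N fun x => (hm x.1).2 x.2
  have hι : ∀ x, (ι x : G) = φ x.1 := fun _ => rfl
  have tt : φ t0 * φ t0 = 1 := by
    rw [← map_mul, ← map_one φ]; congr 1; decide
  have ts : φ t0 * σ = σ * φ t0 := by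
    calc φ t0 * σ = (σ * σ) * φ t0 * σ := by rw [h.ss, one_mul]
      _ = σ * (σ * φ t0 * σ) := by group
      _ = _ := by rw [h.st]
  have hc' : σ * φ r1 * σ = φ r0 := by
    rw [← hc]
    calc _ = (σ * σ) * φ r0 * (σ * σ) := by group
      _ = _ := by rw [h.ss, one_mul, mul_one]
  have su : σ * φ (r0 * r1) = φ (r0 * r1) * σ := by
    have e : r0 * r1 = r1 * r0 := by decide
    calc σ * φ (r0 * r1) = σ * φ r0 * (σ * σ) * φ r1 * (σ * σ) := by
          rw [h.ss, map_mul]; group
      _ = (σ * φ r0 * σ) * (σ * φ r1 * σ) * σ := by group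
      _ = _ := by rw [hc, hc', ← map_mul, ← e]
  obtain ⟨s, hs, s1, s2, s3⟩ : ∃ s ∈ N, s * s = 1 ∧ s * φ z0 * s = φ z1 ∧
      s * φ (r0 * r1) = φ (r0 * r1) * s := by
    by_cases h1 : σ ∈ N
    · exact ⟨σ, h1, h.ss, h.sz, su⟩
    · refine ⟨σ * φ t0, (mul_mem_iff_of_index_two hN).2 (by simp [h1, ht]), ?_, ?_, ?_⟩
      · calc σ * φ t0 * (σ * φ t0) = (σ * φ t0 * σ) * φ t0 := by group
          _ = 1 := by rw [h.st, tt]
      · have e : φ t0 * φ z0 * φ t0 = φ z0 := by
          rw [← map_mul, ← map_mul]; congr 1; decide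
        calc σ * φ t0 * φ z0 * (σ * φ t0) = σ * φ t0 * φ z0 * (φ t0 * σ) := by rw [ts]
          _ = σ * (φ t0 * φ z0 * φ t0) * σ := by group
          _ = _ := by rw [e, h.sz]
      · have e : φ t0 * φ (r0 * r1) = φ (r0 * r1) * φ t0 := by
          rw [← map_mul, ← map_mul]; congr 1; decide
        rw [mul_assoc, e, ← mul_assoc, su, mul_assoc]
  refine ⟨ι, ⟨s, hs⟩, ?_, ?_, ?_, Subtype.ext s1, Subtype.ext s2, Subtype.ext s3, ?_⟩
  · intro x y e
    exact Subtype.ext (h.inj (congrArg Subtype.val e))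
  · apply le_antisymm
    · rintro _ ⟨x, rfl⟩
      refine mem_normalizer_fintype ?_
      rintro _ ⟨k, rfl⟩
      simp only [← conj_zpow]
      refine zpow_mem ?_ k
      have e : ∀ a : Perm (Fin 3), a * (swap 0 1 * swap 1 2) * a⁻¹ = swap 0 1 * swap 1 2 ∨
          a * (swap 0 1 * swap 1 2) * a⁻¹ = (swap 0 1 * swap 1 2)⁻¹ := by decide
      rw [← map_inv, ← map_mul, ← map_mul]
      rcases e x.1.1 with e | e
      · have : x * H8A.z0 * x⁻¹ = H8A.z0 := Subtype.ext (Prod.ext e (by
          change x.1.2 * 1 * x.1.2⁻¹ = 1; simp))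
        rw [this]; exact mem_zpowers _
      · have : x * H8A.z0 * x⁻¹ = H8A.z0⁻¹ := Subtype.ext (Prod.ext e (by
          change x.1.2 * 1 * x.1.2⁻¹ = 1⁻¹; simp))
        rw [this, map_inv]; exact inv_mem (mem_zpowers _)
    · intro g hg
      obtain ⟨k, hk⟩ := (mem_normalizer_iff.1 hg (ι H8A.z0)).1 (mem_zpowers _)
      obtain ⟨x, hx⟩ := h.nz g ⟨k, by
        have := congrArg Subtype.val hk
        have e : (ι H8A.z0 : G) = φ z0 := rfl
        simpa [e] using this⟩
      exact ⟨⟨x, (hm x).1 (hx ▸ g.2)⟩, Subtype.ext hx⟩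
  · exact fun e => h.n27 (e.trans (card_subgroup_dvd_card N))
  · set C := centralizer ({φ z0 * φ z1} : Set G) with hC
    have e0 : (ι (H8A.z0 * H8A.d0) : G) = φ z0 * φ z1 := by
      rw [← map_mul]; rfl
    have e1 : Nat.card (centralizer ({ι (H8A.z0 * H8A.d0)} : Set N)) = Nat.card (N.subgroupOf C) := by
      refine Nat.card_congr
        { toFun := fun u => ⟨⟨u.1.1, mem_centralizer_singleton_iff.2 (by
              rw [← e0]; exact congrArg Subtype.val (mem_centralizer_singleton_iff.1 u.2))⟩, u.1.2⟩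
          invFun := fun u => ⟨⟨u.1.1, u.2⟩, mem_centralizer_singleton_iff.2 (Subtype.ext (by
              have := mem_centralizer_singleton_iff.1 u.1.2
              rw [← e0] at this
              exact this))⟩
          left_inv := fun u => rfl
          right_inv := fun u => rfl }
    have e2 : N.relIndex C = 2 := by
      have d : N.relIndex C ∣ 2 := hN ▸ relIndex_dvd_index_of_normal N C
      refine ((Nat.dvd_prime Nat.prime_two).1 d).resolve_left fun e => ht ?_
      refine relIndex_eq_one.1 e (mem_centralizer_singleton_iff.2 ?_)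
      rw [← map_mul, ← map_mul, ← map_mul]; congr 1; decide
    have e3 := card_mul_index (N.subgroupOf C)
    rw [show (N.subgroupOf C).index = 2 from e2, h.cy] at e3
    omega

end H25.A8a
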