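import Cfsg.Agent.H25.Galois

/-! Closures of affine groups. -/

namespace H25

open MulAction Equiv

/-- The `k`-closure of a permutation group. -/
def kClosure {Ω : Type*} (G : Subgroup (Perm Ω)) (k : ℕ) : Subgroup (Perm Ω) where
  carrier := {σ | ∀ t : Fin k → Ω, ∃ g ∈ G, ∀ i, σ (t i) = g (t i)}
  one_mem' := fun _ => ⟨1, G.one_mem, fun _ => rfl⟩
  mul_mem' := by
    intro σ τ hσ hτ t
    obtain ⟨g, hg, h1⟩ := hτ t
    obtain ⟨h, hh, h2⟩ := hσ (fun i => τ (t i))
    exact ⟨h * g, G.mul_mem hh hg, fun i => by rw [Perm.mul_apply, Perm.mul_apply, h2, h1]⟩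
  inv_mem' := by
    intro σ hσ t
    obtain ⟨g, hg, h1⟩ := hσ (fun i => σ⁻¹ (t i))
    refine ⟨g⁻¹, G.inv_mem hg, fun i => ?_⟩
    have := h1 i
    rw [Perm.inv_def, Equiv.apply_symm_apply] at this
    rw [Perm.inv_def, Perm.inv_def, Equiv.eq_symm_apply, ← this]

theorem le_kClosure {Ω : Type*} (G : Subgroup (Perm Ω)) (k : ℕ) : G ≤ kClosure G k :=
  fun g hg _ => ⟨g, hg, fun _ => rfl⟩

/-- In odd characteristic a permutation agreeing on each triple with an affine map is affine. -/
theorem affine_of_triples {K V : Type*} [Field K] [AddCommGroup V] [Module K V]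
    (h2 : (2 : K) ≠ 0) (σ : Perm V)
    (hσ : ∀ t : Fin 3 → V, ∃ (A : V →ₗ[K] V) (b : V), ∀ i, σ (t i) = A (t i) + b) :
    ∃ (A : V ≃ₗ[K] V) (b : V), ∀ x, σ x = A x + b := by
  have key : ∀ (x y : V) (c : K), σ (c • x + (1 - c) • y) = c • σ x + (1 - c) • σ y := by
    intro x y c
    obtain ⟨A, b, h⟩ := hσ ![x, y, c • x + (1 - c) • y]
    have h0 := h 0
    have h1 := h 1
    have h3 := h 2
    simp only [Matrix.cons_val_zero, Matrix.cons_val_one, Matrix.cons_val] at h0 h1 h3
    rw [h0, h1, h3, map_add, map_smul, map_smul]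
    module
  have hs : ∀ (c : K) (x : V), σ (c • x) - σ 0 = c • (σ x - σ 0) := by
    intro c x
    have := key x 0 c
    rw [smul_zero, add_zero] at this
    rw [this]; module
  have ha : ∀ x y : V, σ (x + y) - σ 0 = (σ x - σ 0) + (σ y - σ 0) := by
    intro x y
    have e : x + y = (2 : K) • ((2⁻¹ : K) • x + (1 - 2⁻¹ : K) • y) := by
      have : (1 - 2⁻¹ : K) = 2⁻¹ := by field_simp; ring
      rw [this, smul_add, smul_smul, smul_smul, mul_inv_cancel₀ h2, one_smul, one_smul]
    rw [e, hs, key]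
    have : (1 - 2⁻¹ : K) = 2⁻¹ := by field_simp; ring
    rw [this, smul_sub, smul_add, smul_smul, smul_smul, mul_inv_cancel₀ h2]
    module
  let L : V →ₗ[K] V :=
    { toFun := fun x => σ x - σ 0
      map_add' := ha
      map_smul' := hs }
  have hL : Function.Bijective L := by
    constructor
    · intro x y h
      exact σ.injective (sub_left_injective h)
    · intro y
      exact ⟨σ.symm (y + σ 0), by simp [L]⟩
  exact ⟨LinearEquiv.ofBijective L hL, σ 0, fun x => by simp [L]⟩

/-- A proper subspace is fixed pointwise by a linear automorphism of any prescribed determinant. -/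
theorem exists_det_eq_fixing {K V : Type*} [Field K] [AddCommGroup V] [Module K V]
    [FiniteDimensional K V] (W : Submodule K V) (hW : W ≠ ⊤) {c : K} (hc : c ≠ 0) :
    ∃ D : V ≃ₗ[K] V, LinearMap.det (D : V →ₗ[K] V) = c ∧ ∀ w ∈ W, D w = w := by
  obtain ⟨x, hx⟩ : ∃ x, x ∉ W := by
    by_contra h
    push Not at h
    exact hW (eq_top_iff.2 fun x _ => h x)
  obtain ⟨f, hf, hfW⟩ := W.exists_dual_map_eq_bot_of_notMem hx inferInstance
  have h1 : 1 + f (((c - 1) / f x) • x) = c := by
    rw [map_smul, smul_eq_mul, div_mul_cancel₀ _ hf]; ring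
  refine ⟨LinearEquiv.dilatransvection (f := f) (v := ((c - 1) / f x) • x)
    (by rw [h1]; exact hc.isUnit), ?_, fun w hw => ?_⟩
  · rw [LinearEquiv.dilatransvection.coe_toLinearMap, LinearMap.transvection.det, h1]
  · have : f w = 0 := by
      rw [← Submodule.mem_bot K, ← hfW]
      exact Submodule.mem_map_of_mem hw
    rw [LinearEquiv.dilatransvection.apply, this, zero_smul, add_zero]

end H25
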