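import Mathlib
import Cfsg.Agent.H25.CompLen
import Cfsg.Agent.H25.ExtAff
import Cfsg.Agent.H25.ONS2

/-! The bound `4 (n - r) / 3` for the composition length of a permutation group. -/

set_option autoImplicit false

namespace H25

open MulAction Subgroup ArithmeticFunction

universe u

theorem cardFactors_le_log (n : ℕ) : cardFactors n ≤ Nat.log 2 n := by
  rcases Nat.eq_zero_or_pos n with rfl | hn
  · simp
  refine Nat.le_log_of_pow_le one_lt_two ?_
  rw [cardFactors_apply]
  conv_rhs => rw [← Nat.prod_primeFactorsList hn.ne']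
  exact List.pow_card_le_prod _ _ fun p hp => (Nat.prime_of_mem_primeFactorsList hp).two_le

theorem cardFactors_aut_le {S N : Type*} [Group S] [Finite S] [Group N] [Finite N]
    [MulDistribMulAction S N] [FaithfulSMul S N] :
    cardFactors (Nat.card S) ≤ cardFactors (Nat.card N) * Nat.log 2 (Nat.card N - 1) := by
  have top : cardFactors (Nat.card (fixingSubgroup S ((⊤ : Subgroup N) : Set N))) = 0 := by
    have : fixingSubgroup S ((⊤ : Subgroup N) : Set N) = ⊥ := eq_bot_iff.2 fun s hs =>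
      mem_bot.2 (eq_of_smul_eq_smul (α := N) fun x => by
        rw [one_smul]; exact hs ⟨x, trivial⟩)
    rw [this, card_bot, cardFactors_one]
  have key : ∀ (k : ℕ) (U : Subgroup N), cardFactors U.index ≤ k →
      cardFactors (Nat.card (fixingSubgroup S (U : Set N))) ≤ k * Nat.log 2 (Nat.card N - 1) := by
    intro k
    induction k with
    | zero =>
      intro U hU
      have h0 : U.index ≠ 0 := index_ne_zero_of_finite
      have h1 : ¬ 1 < U.index := fun e => by have := cardFactors_pos_iff_one_lt.2 e; omega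
      rw [index_eq_one.1 (show U.index = 1 by omega), top]
      exact Nat.zero_le _
    | succ k ih =>
      intro U hU
      by_cases hT : U = ⊤
      · rw [hT, top]; exact Nat.zero_le _
      obtain ⟨x, hx⟩ : ∃ x, x ∉ U := by
        by_contra h
        push Not at h
        exact hT (eq_top_iff.2 fun x _ => h x)
      have hle : U ≤ U ⊔ zpowers x := le_sup_left
      have h1 := relIndex_mul_index hle
      have h2 : U.relIndex (U ⊔ zpowers x) ≠ 1 := fun e =>
        hx (relIndex_eq_one.1 e (mem_sup_right (mem_zpowers x)))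
      have h3 : U.relIndex (U ⊔ zpowers x) ≠ 0 := index_ne_zero_of_finite
      have h4 := cardFactors_pos_iff_one_lt.2 (show 1 < U.relIndex (U ⊔ zpowers x) by omega)
      rw [← h1, cardFactors_mul h3 index_ne_zero_of_finite] at hU
      have ih' := ih (U ⊔ zpowers x) (by omega)
      have e : fixingSubgroup S ((U ⊔ zpowers x : Subgroup N) : Set N) =
          stabilizer S x ⊓ fixingSubgroup S (U : Set N) := by
        ext s
        simp only [mem_inf, mem_fixingSubgroup_iff, mem_stabilizer_iff]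
        refine ⟨fun h => ⟨h x (mem_sup_right (mem_zpowers x)), fun y hy => h y (hle hy)⟩,
          fun h y hy => ?_⟩
        have : U ⊔ zpowers x ≤ (MulDistribMulAction.toMonoidHom N s).eqLocus (MonoidHom.id N) :=
          sup_le (fun y hy => h.2 y hy) (zpowers_le.2 h.1)
        exact this hy
      have h5 := card_mul_index ((stabilizer S x).subgroupOf (fixingSubgroup S (U : Set N)))
      rw [← inf_subgroupOf_right, Nat.card_congr (subgroupOfEquivOfLe inf_le_right).toEquiv,
        inf_subgroupOf_right, ← e] at h5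
      rw [← h5, cardFactors_mul Nat.card_pos.ne' index_ne_zero_of_finite, add_mul, one_mul]
      refine add_le_add ih' ((cardFactors_le_log _).trans (Nat.log_mono_right ?_))
      have h6 := ncard_suborbit (fixingSubgroup S (U : Set N)) x
      rw [relIndex] at h6
      rw [← h6, ← Set.ncard_univ, ← Set.ncard_diff_singleton_of_mem (Set.mem_univ (1 : N))]
      refine Set.ncard_le_ncard ?_
      rintro _ ⟨s, rfl⟩
      refine ⟨trivial, fun h => hx ?_⟩
      have h' : (s : S) • x = 1 := h
      rw [smul_eq_iff_eq_inv_smul, smul_one] at h'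
      exact h' ▸ one_mem U
  have := key _ ⊥ le_rfl
  rw [index_bot] at this
  have e : fixingSubgroup S ((⊥ : Subgroup N) : Set N) = ⊤ := eq_top_iff.2 fun s _ => by
    rw [mem_fixingSubgroup_iff]
    intro y hy
    rw [mem_bot.1 hy, smul_one]
  rwa [e, card_top] at this

theorem cl_num_aux (L : ℕ) (hL : 5 ≤ L) : 3 * ((L + 1) * (L + 1)) ≤ 4 * 2 ^ L := by
  induction L, hL using Nat.le_induction with
  | base => norm_num
  | succ L hL ih => rw [pow_succ]; nlinarith

theorem cl_num {n : ℕ} (hn : 2 ≤ n) :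
    3 * (cardFactors n + cardFactors n * Nat.log 2 (n - 1)) + 4 ≤ 4 * n := by
  have h1 := cardFactors_le_log n
  by_cases h : n ≤ 32
  · by_cases h5 : n = 5
    · subst h5
      rw [cardFactors_apply_prime (by norm_num)]; decide
    by_cases h9 : n = 9
    · subst h9
      rw [show 9 = 3 ^ 2 by norm_num, cardFactors_apply_prime_pow (by norm_num)]; decide
    have : 3 * (Nat.log 2 n + Nat.log 2 n * Nat.log 2 (n - 1)) + 4 ≤ 4 * n := by
      interval_cases n <;> first | exact absurd rfl h5 | exact absurd rfl h9 | decide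
    have h2 := Nat.mul_le_mul_right (Nat.log 2 (n - 1)) h1
    omega
  · have h2 : 2 ^ Nat.log 2 (n - 1) ≤ n - 1 := Nat.pow_log_le_self 2 (by omega)
    have h3 : n - 1 < 2 ^ (Nat.log 2 (n - 1) + 1) := Nat.lt_pow_succ_log_self one_lt_two _
    have h4 : 5 ≤ Nat.log 2 (n - 1) := Nat.le_log_of_pow_le one_lt_two (by omega)
    have h5 : Nat.log 2 n ≤ Nat.log 2 (n - 1) + 1 := by
      refine (Nat.log_mono_right (show n ≤ 2 ^ (Nat.log 2 (n - 1) + 1) by omega)).trans ?_
      rw [Nat.log_pow one_lt_two]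
    have h6 := cl_num_aux _ h4
    have h7 := Nat.mul_le_mul_right (Nat.log 2 (n - 1) + 1) (h1.trans h5)
    have : cardFactors n + cardFactors n * Nat.log 2 (n - 1) =
      cardFactors n * (Nat.log 2 (n - 1) + 1) := by ring
    omega

theorem scott_bound {D : Type*} [Group D] [Finite D] {m : ℕ} {A : Fin m → Type*}
    [∀ i, Group (A i)] [∀ i, Finite (A i)] [∀ i, IsSimpleGroup (A i)]
    (hna : ∀ i, ¬ IsMulCommutative (A i)) {t : ℕ} (ht : ∀ i, Nat.card (A i) = t)
    (f : ∀ i, D →* A i) (hf : ∀ i, Function.Surjective (f i))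
    (hinj : ∀ i d, (∀ j, j ≠ i → f j d = 1) → d = 1) (hm : 0 < m) : Nat.card D ^ 2 ≤ t ^ m := by
  classical
  have h1 : ∀ i, ∃ j, j ≠ i ∧ (f j).ker = (f i).ker := by
    intro i
    by_contra hc
    push Not at hc
    have hsurj : ∀ K : Subgroup D, K.Normal → ¬ K ≤ (f i).ker → ∀ x, ∃ k ∈ K, f i k = x := by
      intro K hK hK' x
      rcases IsSimpleGroup.eq_bot_or_eq_top_of_normal (K.map (f i)) (hK.map _ (hf i)) with e | e
      · exact absurd ((Subgroup.map_eq_bot_iff _).1 e) hK'
      · exact (e ▸ mem_top x : x ∈ K.map (f i))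
    have key : ∀ s : Finset (Fin m), i ∉ s → ¬ s.inf (fun j => (f j).ker) ≤ (f i).ker := by
      intro s
      induction s using Finset.induction_on with
      | empty =>
        intro _ h
        obtain ⟨x, hx⟩ := exists_ne (1 : A i)
        obtain ⟨d, rfl⟩ := hf i x
        exact hx (h (mem_top d))
      | insert j s hj ih =>
        intro hi h
        rw [Finset.mem_insert, not_or] at hi
        have hn : (s.inf fun j => (f j).ker).Normal := ⟨fun a ha g => by
          simp only [Finset.inf_eq_iInf, mem_iInf] at ha ⊢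
          exact fun l hl => (inferInstance : (f l).ker.Normal).conj_mem a (ha l hl) g⟩
        have hj' : ¬ (f j).ker ≤ (f i).ker := fun e => hc j (Ne.symm hi.1) (by
          refine eq_of_le_of_card_ge e (le_of_eq ?_)
          have e1 := card_mul_index (f i).ker
          have e2 := card_mul_index (f j).ker
          rw [index_ker, MonoidHom.range_eq_top.2 (hf _), card_top, ht] at e1 e2
          exact Nat.eq_of_mul_eq_mul_right (ht i ▸ Nat.card_pos) (e1.trans e2.symm))
        refine hna i ⟨⟨fun x y => ?_⟩⟩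
        obtain ⟨a, ha, rfl⟩ := hsurj _ hn (ih hi.2) x
        obtain ⟨b, hb, rfl⟩ := hsurj _ inferInstance hj' y
        have : a * b * a⁻¹ * b⁻¹ ∈ (insert j s).inf fun j => (f j).ker := by
          rw [Finset.inf_insert]
          refine mem_inf.2 ⟨mul_mem ((inferInstance : (f j).ker.Normal).conj_mem b hb a)
            (inv_mem hb), ?_⟩
          rw [mul_assoc, mul_assoc, ← mul_assoc b]
          exact mul_mem ha (hn.conj_mem _ (inv_mem ha) b)
        have := h this
        rw [MonoidHom.mem_ker, map_mul, map_mul, map_mul, map_inv, map_inv,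
          mul_inv_eq_one, mul_inv_eq_iff_eq_mul] at this
        exact this
    refine key (Finset.univ.erase i) (by simp) fun d hd => ?_
    simp only [Finset.inf_eq_iInf, mem_iInf] at hd
    rw [hinj i d fun j hj => hd j (by simpa using hj)]
    exact one_mem _
  choose σ hσ hσ' using h1
  let J : Finset (Fin m) := Finset.univ.filter fun i => ∀ j, (f j).ker = (f i).ker → i ≤ j
  have hJ : J.card * 2 ≤ m := by
    have : J.card ≤ Jᶜ.card := by
      refine Finset.card_le_card_of_injOn σ (fun i hi => ?_) fun i hi j hj e => ?_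
      · simp only [J, Finset.coe_filter, Finset.mem_univ, true_and, Set.mem_setOf_eq,
          Finset.coe_compl, Set.mem_compl_iff] at hi ⊢
        exact fun h => hσ i (le_antisymm (h i (hσ' i).symm) (hi _ (hσ' i)))
      · simp only [J, Finset.coe_filter, Finset.mem_univ, true_and, Set.mem_setOf_eq] at hi hj
        have : (f i).ker = (f j).ker := by rw [← hσ' i, ← hσ' j, e]
        exact le_antisymm (hi j this.symm) (hj i this)
    rw [Finset.card_compl, Fintype.card_fin] at this
    omega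
  have hD : Nat.card D ≤ t ^ J.card := by
    have : Nat.card (∀ j : J, A j) = t ^ J.card := by
      rw [Nat.card_pi]; simp [ht]
    rw [← this]
    refine Nat.card_le_card_of_injective (MonoidHom.pi fun j : J => f j)
      ((injective_iff_map_eq_one _).2 fun d hd => hinj ⟨0, hm⟩ d fun i _ => ?_)
    obtain ⟨j, hj, hmin⟩ := Finset.exists_min_image
      (Finset.univ.filter fun j => (f j).ker = (f i).ker) id ⟨i, by simp⟩
    simp only [Finset.mem_filter, Finset.mem_univ, true_and, id] at hj hmin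
    have hjJ : j ∈ J := by
      simp only [J, Finset.mem_filter, Finset.mem_univ, true_and]
      exact fun l hl => hmin l (hl.trans hj)
    have : d ∈ (f j).ker := congrFun hd ⟨j, hjJ⟩
    rwa [hj] at this
  calc Nat.card D ^ 2 ≤ (t ^ J.card) ^ 2 := Nat.pow_le_pow_left hD 2
    _ ≤ t ^ m := by
      rw [← pow_mul]
      exact Nat.pow_le_pow_right (ht ⟨0, hm⟩ ▸ Nat.card_pos) hJ

section fac
variable {G : Type u} [Group G] {N : Subgroup G} {m : ℕ} {T : Fin m → Subgroup G}

theorem Fac.exists_proj (h : Fac N T) (i : Fin m) :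
    ∃ π : N →* T i, ∀ n : N, ((π n : G))⁻¹ * n ∈ centralizer (T i : Set G) := by
  have := h.simple i
  have hu : ∀ {n a b : G}, a ∈ T i → b ∈ T i → a⁻¹ * n ∈ centralizer (T i : Set G) →
      b⁻¹ * n ∈ centralizer (T i : Set G) → a = b := by
    intro n a b ha hb h1 h2
    have h3 := mul_mem h1 (inv_mem h2)
    rw [mul_inv_rev, inv_inv, mul_assoc, mul_inv_cancel_left] at h3
    exact inv_mul_eq_one.1 (inf_centralizer_eq_bot (h.nonab i) (mul_mem (inv_mem ha) hb) h3)
  choose p hp hp' using h.split i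
  refine ⟨MonoidHom.mk' (fun n => ⟨p n n.2, hp n n.2⟩) fun a b => Subtype.ext ?_,
    fun n => hp' n n.2⟩
  refine hu (hp _ _) (mul_mem (hp _ a.2) (hp _ b.2)) (hp' _ (a * b).2) ?_
  have h1 := mul_mem (hp' _ a.2) (hp' _ b.2)
  have h2 := hp' _ a.2 _ (inv_mem (hp _ b.2))
  convert h1 using 1
  rw [← mul_assoc, ← h2]
  simp [mul_assoc]

variable [Finite G]

theorem Fac.cl_le (h : Fac N T) : cl N ≤ m := by
  classical
  have key : ∀ s : Finset (Fin m), cl (s.sup T : Subgroup G) ≤ s.card := by
    intro s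
    induction s using Finset.induction_on with
    | empty => exact cl_bot.le
    | insert i s hi ih =>
      rw [Finset.sup_insert, Finset.card_insert_of_notMem hi]
      have := h.simple i
      have h1 := cl_simple (T i)
      have h2 := cl_sup_le (A := T i) (B := s.sup T) fun b hb =>
        h.norm i b (Finset.sup_le (fun j _ => h.le j) hb)
      omega
  have e : Finset.univ.sup T = N := le_antisymm (Finset.sup_le fun j _ => h.le j)
    (h.gen _ fun i => Finset.le_sup (Finset.mem_univ i))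
  have := key Finset.univ
  rwa [e, Finset.card_fin] at this

theorem Fac.le_cl_inf (h : Fac N T) {S : Subgroup G} (hS : ∀ i, T i ⊓ S ≠ ⊥) :
    m ≤ cl (N ⊓ S : Subgroup G) := by
  classical
  have hle : ∀ s : Finset (Fin m), s.sup (fun i => T i ⊓ S) ≤ N ⊓ S := fun s =>
    Finset.sup_le fun j _ => inf_le_inf_right _ (h.le j)
  have hn : ∀ s : Finset (Fin m), ∀ b ∈ N ⊓ S, ∀ a ∈ s.sup (fun i => T i ⊓ S),
      b * a * b⁻¹ ∈ s.sup (fun i => T i ⊓ S) := by
    intro s b hb
    have : s.sup (fun i => T i ⊓ S) ≤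
        (s.sup (fun i => T i ⊓ S)).comap (MulAut.conj b).toMonoidHom :=
      Finset.sup_le fun j hj t ht => Finset.le_sup (f := fun i => T i ⊓ S) hj
        (mem_inf.2 ⟨h.norm j b hb.1 t ht.1, mul_mem (mul_mem (mem_inf.1 hb).2 (mem_inf.1 ht).2)
          (inv_mem (mem_inf.1 hb).2)⟩)
    exact fun a ha => this ha
  have key : ∀ s : Finset (Fin m), s.card ≤ cl (s.sup (fun i => T i ⊓ S) : Subgroup G) := by
    intro s
    induction s using Finset.induction_on with
    | empty => exact Nat.zero_le _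
    | insert i s hi ih =>
      rw [Finset.card_insert_of_notMem hi]
      refine Nat.succ_le_of_lt (ih.trans_lt (cl_lt_of_conj ?_ fun b hb => hn s b (hle _ hb)))
      rw [Finset.sup_insert]
      refine right_lt_sup.2 fun e => hS i (eq_bot_iff.2 fun t ht => mem_bot.2 ?_)
      have := h.simple i
      have hc : s.sup (fun i => T i ⊓ S) ≤ centralizer (T i : Set G) :=
        Finset.sup_le fun j hj => inf_le_left.trans (h.comm i j fun e => hi (e ▸ hj))
      exact inf_centralizer_eq_bot (h.nonab i) ht.1 (hc (e ht))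
  have := (key Finset.univ).trans (cl_le_of_conj (hle _) (hn _))
  rwa [Finset.card_fin] at this

theorem Fac.card_eq (h : Fac N T) (i j : Fin m) : Nat.card (T i) = Nat.card (T j) :=
  Nat.pow_left_injective h.pos.ne' ((h.card i).symm.trans (h.card j))

/-- Diagonal type: the stabilizer in the socle has order at most the square root. -/
theorem Fac.sq_le (h : Fac N T) [hN : N.Normal]
    (hmin : ∀ M : Subgroup G, M.Normal → M ≤ N → M = ⊥ ∨ M = N) {S : Subgroup G}
    (hS : IsCoatom S) (h1 : N ⊓ S ≠ ⊥) (h2 : ∀ i, T i ⊓ S = ⊥) :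
    Nat.card (N ⊓ S : Subgroup G) ^ 2 ≤ Nat.card N := by
  choose π hπ using h.exists_proj
  have hZ : ∀ n ∈ N, (∀ i, n ∈ centralizer (T i : Set G)) → n = 1 := by
    intro n hn hc
    have h3 : n ∈ centralizer (N : Set G) := by
      have := h.gen (centralizer {n}) fun i t ht => by
        rw [mem_centralizer_singleton_iff]; exact hc i t ht
      exact fun x hx => mem_centralizer_singleton_iff.1 (this hx)
    rcases hmin (N ⊓ centralizer (N : Set G)) inferInstance inf_le_left with e | e
    · exact mem_bot.1 (e ▸ ⟨hn, h3⟩)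
    · refine absurd ⟨⟨fun a b => Subtype.ext ?_⟩⟩ (h.nonab ⟨0, h.pos⟩)
      exact (e.ge (h.le _ b.2)).2 a (h.le _ a.2)
  have hker : ∀ i (n : N), π i n = 1 ↔ (n : G) ∈ centralizer (T i : Set G) := by
    intro i n
    have := h.simple i
    refine ⟨fun e => by simpa [e] using hπ i n, fun e => Subtype.ext ?_⟩
    have h3 := mul_mem (hπ i n) (inv_mem e)
    rw [mul_inv_cancel_right, inv_mem_iff] at h3
    exact inf_centralizer_eq_bot (h.nonab i) (π i n).2 h3
  let f : ∀ i, (N ⊓ S : Subgroup G) →* T i := fun i => (π i).comp (inclusion inf_le_left)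
  let P : Fin m → Subgroup G := fun i => (f i).range.map (T i).subtype
  have hP : ∀ i t, t ∈ P i ↔ t ∈ T i ∧ ∃ r ∈ N ⊓ S, t⁻¹ * r ∈ centralizer (T i : Set G) := by
    intro i t
    constructor
    · rintro ⟨_, ⟨r, rfl⟩, rfl⟩
      exact ⟨(f i r).2, r, r.2, hπ i _⟩
    · rintro ⟨ht, r, hr, e⟩
      refine ⟨⟨t, ht⟩, ⟨⟨r, hr⟩, ?_⟩, rfl⟩
      have e1 := (hker i (⟨t, h.le i ht⟩⁻¹ * ⟨r, hr.1⟩)).2 e
      have e2 : π i ⟨t, h.le i ht⟩ = ⟨t, ht⟩ := by
        have := h.simple i
        exact Subtype.ext (inv_mul_eq_one.1 (inf_centralizer_eq_bot (h.nonab i)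
          (mul_mem (inv_mem (π i ⟨t, h.le i ht⟩).2) ht) (hπ i ⟨t, h.le i ht⟩)))
      rw [map_mul, map_inv, e2, inv_mul_eq_one] at e1
      exact e1.symm
  have hPle : ∀ i, P i ≤ ⨆ i, P i := fun i => le_iSup P i
  have hnS : ¬ ⨆ i, P i ≤ S := by
    intro e
    refine h1 (eq_bot_iff.2 fun r hr => mem_bot.2 (hZ r hr.1 fun i => ?_))
    have h3 : (f i ⟨r, hr⟩ : G) ∈ T i ⊓ S := ⟨(f i _).2, e (hPle i ⟨_, ⟨_, rfl⟩, rfl⟩)⟩
    rw [h2, mem_bot] at h3
    exact (hker i ⟨r, hr.1⟩).1 (Subtype.ext h3)
  have hnorm : (⨆ i, P i).Normal := by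
    refine normalizer_eq_top_iff.1 (hS.2 _ (lt_of_le_of_ne (fun s hs => ?_) fun e => hnS ?_))
    · refine mem_normalizer_fintype ?_
      have : ⨆ i, P i ≤ (⨆ i, P i).comap (MulAut.conj s).toMonoidHom := by
        refine iSup_le fun i t ht => ?_
        obtain ⟨j, hj⟩ := h.perm s i
        obtain ⟨ht1, r, hr, e⟩ := (hP i t).1 ht
        refine hPle j ((hP j _).2 ⟨(hj t).1 ht1, s * r * s⁻¹, mem_inf.2 ⟨hN.conj_mem r hr.1 s,
          mul_mem (mul_mem hs (mem_inf.1 hr).2) (inv_mem hs)⟩, fun x hx => ?_⟩)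
        have h3 := e (s⁻¹ * x * s) ((hj _).2 (by simpa [mul_assoc] using hx))
        show x * ((s * t * s⁻¹)⁻¹ * (s * r * s⁻¹)) = (s * t * s⁻¹)⁻¹ * (s * r * s⁻¹) * x
        calc _ = s * (s⁻¹ * x * s * (t⁻¹ * r)) * s⁻¹ := by group
          _ = _ := by rw [h3]; group
      exact fun x hx => this hx
    · rw [e]; exact le_normalizer
  have hPN : ⨆ i, P i = N := (hmin _ hnorm (iSup_le fun i t ht => h.le i ((hP i t).1 ht).1)
    ).resolve_left fun e => hnS (e ▸ bot_le)
  have hsurj : ∀ i, Function.Surjective (f i) := by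
    intro i t
    have h3 : ⨆ j, P j ≤ (((f i).range).comap (π i)).map N.subtype := by
      refine iSup_le fun j x hx => ?_
      obtain ⟨hx1, r, hr, e⟩ := (hP j x).1 hx
      refine ⟨⟨x, h.le j hx1⟩, ?_, rfl⟩
      by_cases hj : j = i
      · subst hj
        refine ⟨⟨r, hr⟩, ?_⟩
        have e1 := (hker j (⟨x, h.le j hx1⟩⁻¹ * ⟨r, hr.1⟩)).2 e
        rw [map_mul, map_inv, inv_mul_eq_one] at e1
        exact e1.symm
      · exact ⟨1, by rw [map_one, (hker i ⟨x, h.le j hx1⟩).2 (h.comm i j (Ne.symm hj) hx1)]⟩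
    obtain ⟨n, ⟨r, hr⟩, e⟩ := h3 (hPN.ge (h.le i t.2))
    refine ⟨r, hr.trans (Subtype.ext ?_)⟩
    have := h.simple i
    have e' : (n : G) = t := e
    exact inv_mul_eq_one.1 (inf_centralizer_eq_bot (h.nonab i)
      (mul_mem (inv_mem (π i n).2) t.2) (e' ▸ hπ i n))
  have := h.simple
  rw [h.card ⟨0, h.pos⟩]
  refine scott_bound h.nonab (fun i => h.card_eq i _) f hsurj (fun i d hd => ?_) h.pos
  have h3 : ((π i ⟨d, d.2.1⟩ : G))⁻¹ * d = 1 := by
    refine hZ _ (mul_mem (inv_mem (h.le i (π i _).2)) d.2.1) fun j => ?_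
    by_cases hj : j = i
    · subst hj; exact hπ j ⟨d, d.2.1⟩
    · exact mul_mem (inv_mem (h.comm j i hj (π i _).2)) ((hker j ⟨d, d.2.1⟩).1 (hd j hj))
  have h4 : (d : G) ∈ T i ⊓ S := ⟨inv_mul_eq_one.1 h3 ▸ (π i _).2, d.2.2⟩
  rw [h2, mem_bot] at h4
  exact Subtype.ext h4

end fac

/-- The bound in the transitive case. -/
def ClTr (G : Type u) [Group G] : Prop :=
  ∀ S : Subgroup G, S.normalCore = ⊥ → 3 * cl G + 4 ≤ 4 * S.index

theorem ClTr.quot {G : Type u} [Group G] (S : Subgroup G) (h : ClTr (G ⧸ S.normalCore)) :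
    3 * cl (G ⧸ S.normalCore) + 4 ≤ 4 * S.index := by
  have h1 := h (S.map (QuotientGroup.mk' _)) (by
    have : (S.map (QuotientGroup.mk' S.normalCore)).normalCore.comap (QuotientGroup.mk' _) ≤
        S.normalCore := normal_le_normalCore.2 ((comap_mono (normalCore_le _)).trans (by
      rw [comap_map_eq, QuotientGroup.ker_mk', sup_of_le_left (normalCore_le S)]))
    refine eq_bot_iff.2 fun x hx => ?_
    obtain ⟨g, rfl⟩ := QuotientGroup.mk_surjective x
    exact mem_bot.2 ((QuotientGroup.eq_one_iff _).2 (this hx)))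
  rwa [index_map_eq _ (QuotientGroup.mk'_surjective _)
    (by rw [QuotientGroup.ker_mk']; exact normalCore_le S)] at h1

theorem cl_orbits {G : Type u} [Group G] [Finite G] {Ω : Type*} [Finite Ω] [MulAction G Ω]
    [FaithfulSMul G Ω] (h : ∀ (K : Subgroup G) [K.Normal], ClTr (G ⧸ K)) :
    3 * cl G + 4 * Nat.card (orbitRel.Quotient G Ω) ≤ 4 * Nat.card Ω := by
  have := Fintype.ofFinite (orbitRel.Quotient G Ω)
  have h1 := cl_le_sum (Finset.univ : Finset (orbitRel.Quotient G Ω)) G
    (fun ω => QuotientGroup.mk' (stabilizer G ω.out).normalCore) fun g hg =>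
      eq_of_smul_eq_smul (α := Ω) fun x => by
        have h2 := (QuotientGroup.eq_one_iff _).1 (hg (Quotient.mk _ x) (Finset.mem_univ _))
        obtain ⟨b, hb⟩ : ∃ b : G, b • x = (Quotient.mk (orbitRel G Ω) x).out :=
          Quotient.mk_out (s := orbitRel G Ω) x
        have h3 : (b * g * b⁻¹) • _ = _ := h2 b
        rw [← hb, mul_smul, inv_smul_smul, mul_smul] at h3
        rw [one_smul]
        exact MulAction.injective b h3
  rw [Nat.card_congr (selfEquivSigmaOrbits G Ω), Nat.card_sigma, Finset.mul_sum,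
    Nat.card_eq_fintype_card, ← Finset.card_univ, Finset.card_eq_sum_ones, Finset.mul_sum]
  refine (Nat.add_le_add_right (Nat.mul_le_mul_left 3 h1) _).trans ?_
  rw [Finset.mul_sum, ← Finset.sum_add_distrib]
  refine Finset.sum_le_sum fun ω _ => ?_
  rw [QuotientGroup.range_mk', cl_top, Nat.card_coe_set_eq, ← index_stabilizer]
  exact ClTr.quot _ (h _)

theorem card_le_card_orbits {G Ω ι : Type*} [Group G] [MulAction G Ω] [Finite Ω] (f : Ω → ι)
    (hf : Function.Surjective f) (hi : ∀ (g : G) x, f (g • x) = f x) :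
    Nat.card ι ≤ Nat.card (orbitRel.Quotient G Ω) := by
  refine Nat.card_le_card_of_surjective (Quotient.lift f ?_) fun i => ?_
  · rintro _ b ⟨g, rfl⟩
    exact hi g b
  · obtain ⟨x, rfl⟩ := hf i
    exact ⟨Quotient.mk _ x, rfl⟩

theorem faithful_quot {G : Type*} [Group G] {S : Subgroup G} (h0 : S.normalCore = ⊥)
    (K : Subgroup G) : FaithfulSMul K (G ⧸ S) := ⟨fun {a b} h => by
  have : (b : G)⁻¹ * a ∈ S.normalCore := by
    rw [normalCore_eq_ker, MonoidHom.mem_ker]
    ext x
    show ((b : G)⁻¹ * a) • x = x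
    rw [mul_smul, inv_smul_eq_iff]
    exact h x
  rw [h0, mem_bot, inv_mul_eq_one] at this
  exact Subtype.ext this.symm⟩

theorem cl_num2 {t m : ℕ} (ht : 9 ≤ t) (hm : 3 ≤ m) : (m * t) ^ 2 ≤ t ^ m := by
  induction m, hm using Nat.le_induction with
  | base => calc (3 * t) ^ 2 = 9 * t ^ 2 := by ring
      _ ≤ t * t ^ 2 := Nat.mul_le_mul_right _ ht
      _ = t ^ 3 := by ring
  | succ m hm ih =>
    calc ((m + 1) * t) ^ 2 ≤ (3 * (m * t)) ^ 2 := Nat.pow_le_pow_left (by nlinarith) 2
      _ = (m * t) ^ 2 * 9 := by ring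
      _ ≤ t ^ m * t := Nat.mul_le_mul ih ht
      _ = _ := by ring

theorem nine_le_card {G : Type*} [Group G] [Finite G] {T : Subgroup G} [IsSimpleGroup T]
    (h : ¬ IsMulCommutative T) : 9 ≤ Nat.card T := by
  obtain ⟨x, hx, y, hy, z, hz, px, py, pz, hxy, hxz, hyz⟩ := exists_three_orders h
  have hd : orderOf x * orderOf y * orderOf z ∣ Nat.card T :=
    Nat.Coprime.mul_dvd_of_dvd_of_dvd (Nat.Coprime.mul_left ((Nat.coprime_primes px pz).2 hxz)
      ((Nat.coprime_primes py pz).2 hyz)) (((Nat.coprime_primes px py).2 hxy).mul_dvd_of_dvd_of_dvd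
      (T.orderOf_dvd_natCard hx) (T.orderOf_dvd_natCard hy)) (T.orderOf_dvd_natCard hz)
  have h1 := Nat.le_of_dvd Nat.card_pos hd
  have := px.two_le
  have := py.two_le
  have := pz.two_le
  have h2 : 5 ≤ orderOf x * orderOf y := by
    rcases Nat.lt_or_gt_of_ne hxy with h | h <;> nlinarith
  nlinarith

theorem cl_prim {G : Type u} [Group G] [Finite G] {S : Subgroup G} (hS : IsCoatom S)
    (h0 : S.normalCore = ⊥) (h : ∀ (K : Subgroup S) [K.Normal], ClTr (S ⧸ K)) :
    3 * cl G + 4 ≤ 4 * S.index := by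
  classical
  have hG0 : (⊤ : Subgroup G) ≠ ⊥ := fun e => hS.1 (eq_top_iff.2 (e ▸ bot_le))
  obtain ⟨N, hN, hN0, -, hmin⟩ := exists_minimal_normal_le (⊤ : Subgroup G) hG0
  have hdec := cf_decomp hS h0 hN0
  have h1 := cl_add_inf_le hdec
  have hC : ∀ s ∈ S, (∀ n ∈ N, n * s = s * n) → s = 1 := fun s hs hc =>
    cf_inf_eq_one hS h0 hN0 (A := centralizer (N : Set G))
      (fun c hc b hb => mem_centralizer_iff.1 hc b hb) hc hs
  have hcard : Nat.card (N ⊓ S : Subgroup G) * S.index = Nat.card N := by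
    have e1 := card_mul_index (S.subgroupOf N)
    rw [← inf_subgroupOf_left, Nat.card_congr (subgroupOfEquivOfLe inf_le_left).toEquiv,
      inf_subgroupOf_left] at e1
    rw [← e1]
    congr 1
    have e2 : S ⊔ N = ⊤ := eq_top_iff.2 fun g _ => by
      obtain ⟨s, hs, k, hk, rfl⟩ := hdec g
      exact mul_mem_sup hs hk
    have e3 := relIndex_mul_index (inf_le_left : N ⊓ S ≤ N)
    have e4 := relIndex_mul_index (inf_le_right : N ⊓ S ≤ S)
    rw [inf_relIndex_right, ← relIndex_sup_right, e2, relIndex_top_right, ← e3,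
      inf_relIndex_left, mul_comm] at e4
    exact Nat.eq_of_mul_eq_mul_right (Nat.pos_of_ne_zero index_ne_zero_of_finite) e4
  by_cases hreg : N ⊓ S = ⊥
  · rw [hreg, card_bot, one_mul] at hcard
    let φ : S →* MulAut N := MulAut.conjNormal.comp S.subtype
    letI : MulDistribMulAction S N := MulDistribMulAction.compHom N φ
    have : FaithfulSMul S N := ⟨fun {a b} hab => by
      have : (b : G)⁻¹ * a = 1 := hC _ (mul_mem (inv_mem b.2) a.2) fun n hn => by
        have e : (a : G) * n * (a : G)⁻¹ = b * n * (b : G)⁻¹ := congrArg Subtype.val (hab ⟨n, hn⟩)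
        calc n * ((b : G)⁻¹ * a) = (b : G)⁻¹ * (b * n * (b : G)⁻¹) * a := by group
          _ = _ := by rw [← e]; group
      exact Subtype.ext (inv_mul_eq_one.1 this).symm⟩
    have h2 := (cl_le_cardFactors S).trans (cardFactors_aut_le (S := S) (N := N))
    have h3 := cl_le_cardFactors N
    have : Nontrivial N := (nontrivial_iff_ne_bot _).2 hN0
    have h4 := cl_num (n := Nat.card N) Finite.one_lt_card
    omega
  have hpos : 0 < cl (N ⊓ S : Subgroup G) :=
    have := (nontrivial_iff_ne_bot _).2 hreg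
    cl_pos _
  have h5 : 3 * cl S + 8 ≤ 4 * S.index := by
    have := faithful_quot h0 S
    have e1 := cl_orbits (G := S) (Ω := G ⧸ S) h
    have e2 := card_le_card_orbits (G := S) (fun x : G ⧸ S => x = ((1 : G) : G ⧸ S)) ?_ ?_
    · rw [Nat.card_eq_fintype_card, Fintype.card_prop] at e2
      rw [index]
      omega
    · intro p
      by_cases hp : p
      · exact ⟨_, eq_true rfl |>.trans (eq_true hp).symm⟩
      · obtain ⟨x, -, hx⟩ := cf_exists_not_mem h0 hN0
        exact ⟨x, propext ⟨fun e => absurd (by simpa using QuotientGroup.eq.1 e.symm) hx,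
          fun e => absurd e hp⟩⟩
    · intro g x
      have e : g • ((1 : G) : G ⧸ S) = ((1 : G) : G ⧸ S) := QuotientGroup.eq.2 (by simp)
      exact propext ⟨fun e' => MulAction.injective g (e'.trans e.symm), fun e' => e' ▸ e⟩
  have hna : ¬ IsMulCommutative N := fun hc => hreg (eq_bot_iff.2 fun a ha => mem_bot.2
    (hC a ha.2 fun n hn => congrArg Subtype.val (hc.1.1 ⟨n, hn⟩ ⟨a, ha.1⟩)))
  obtain ⟨m, T, hT⟩ := exists_fac N hN0 hmin hna
  have h6 := hT.cl_le
  by_cases hm : m ≤ 2
  · omega
  by_cases hprod : ∀ i, T i ⊓ S ≠ ⊥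
  · have := hT.le_cl_inf hprod
    omega
  push Not at hprod
  obtain ⟨i, hi⟩ := hprod
  have hdiag : ∀ j, T j ⊓ S = ⊥ := fun j => eq_bot_iff.2 fun t ht => by
    obtain ⟨s, hs, hst⟩ := hT.cf_trans hS h0 j i
    have : s * t * s⁻¹ ∈ T i ⊓ S :=
      mem_inf.2 ⟨hst t ht.1, mul_mem (mul_mem hs (mem_inf.1 ht).2) (inv_mem hs)⟩
    rw [hi, mem_bot] at this
    simpa using this
  have h7 := hT.sq_le hmin hS hreg hdiag
  have hsi := hT.simple i
  have h8 := cl_num2 (nine_le_card (hT.nonab i)) (show 3 ≤ m by omega)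
  have h9 : m * Nat.card (T i) ≤ S.index := by
    rw [← hT.card i] at h8
    refine (Nat.pow_le_pow_iff_left (show 2 ≠ 0 by omega)).1 (h8.trans ?_)
    have e : Nat.card (N ⊓ S : Subgroup G) ≤ S.index := by
      rw [← hcard, pow_two] at h7
      exact Nat.le_of_mul_le_mul_left h7 Nat.card_pos
    rw [← hcard, pow_two]
    exact Nat.mul_le_mul_right _ e
  let X := {x : G // x ≠ 1 ∧ ∃ j, x ∈ T j}
  letI : MulAction S X :=
    { smul := fun s x => ⟨s * x * (s : G)⁻¹, by simpa using x.2.1, by
        obtain ⟨j, hj⟩ := x.2.2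
        obtain ⟨l, hl⟩ := hT.perm s j
        exact ⟨l, (hl _).1 hj⟩⟩
      one_smul := fun x => Subtype.ext (by show (1 : G) * x * 1⁻¹ = x; simp)
      mul_smul := fun a b x => Subtype.ext (by
        show (a * b : G) * x * (a * b : G)⁻¹ = a * (b * x * (b : G)⁻¹) * (a : G)⁻¹
        group) }
  have : FaithfulSMul S X := ⟨fun {a b} hab => by
    have : (b : G)⁻¹ * a = 1 := hC _ (mul_mem (inv_mem b.2) a.2) fun n hn => by
      refine mem_centralizer_singleton_iff.1 (hT.gen _ (fun j n hn => ?_) hn)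
      rw [mem_centralizer_singleton_iff]
      by_cases hn1 : n = 1
      · simp [hn1]
      have e : (a : G) * n * (a : G)⁻¹ = b * n * (b : G)⁻¹ :=
        congrArg Subtype.val (hab ⟨n, hn1, j, hn⟩)
      calc n * ((b : G)⁻¹ * a) = (b : G)⁻¹ * (b * n * (b : G)⁻¹) * a := by group
        _ = _ := by rw [← e]; group
    exact Subtype.ext (inv_mul_eq_one.1 this).symm⟩
  have e1 := cl_orbits (G := S) (Ω := X) h
  have e2 : 0 < Nat.card (orbitRel.Quotient S X) := by
    obtain ⟨x, hx⟩ := exists_ne (1 : T i)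
    have : Nonempty (orbitRel.Quotient S X) := ⟨Quotient.mk _ ⟨x, by simpa using hx, i, x.2⟩⟩
    exact Nat.card_pos
  have e3 : Nat.card X ≤ m * (Nat.card (T i) - 1) := by
    have : Nat.card (Σ j : Fin m, {x : T j // x ≠ 1}) = m * (Nat.card (T i) - 1) := by
      rw [Nat.card_sigma, Finset.sum_congr rfl (g := fun _ => Nat.card (T i) - 1),
        Finset.sum_const, Finset.card_fin, smul_eq_mul]
      intro j _
      have := Fintype.ofFinite (T j)
      rw [← hT.card_eq j i, Nat.card_eq_fintype_card, Nat.card_eq_fintype_card,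
        Fintype.card_subtype_compl, Fintype.card_subtype_eq]
    rw [← this]
    refine Nat.card_le_card_of_surjective
      (fun y : Σ j : Fin m, {x : T j // x ≠ 1} => ⟨y.2.1, by simpa using y.2.2, y.1, y.2.1.2⟩) ?_
    rintro ⟨x, hx, j, hj⟩
    exact ⟨⟨j, ⟨x, hj⟩, by simpa using hx⟩, rfl⟩
  rw [Nat.mul_sub_one] at e3
  have e4 : m ≤ m * Nat.card (T i) := Nat.le_mul_of_pos_right _ Nat.card_pos
  omega

theorem clTr_aux : ∀ (n : ℕ) (G : Type u) [Group G] [Finite G], Nat.card G ≤ n → ClTr G
  | 0, G, _, _, h => absurd h (by have := Nat.card_pos (α := G); omega)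
  | n + 1, G, _, _, h => by
    have hq : ∀ S : Subgroup G, S ≠ ⊤ → ∀ (K : Subgroup S) [K.Normal], ClTr (S ⧸ K) :=
      fun S hS K _ => clTr_aux n _ (by
        have := card_lt_of_ne_top hS
        have := Nat.card_le_card_of_surjective _ (QuotientGroup.mk'_surjective K)
        omega)
    intro S h0
    rcases eq_top_or_exists_le_coatom S with rfl | ⟨M, hM, hSM⟩
    · have : Subsingleton G := subsingleton_of_forall_eq 1 fun g =>
        mem_bot.1 (h0 ▸ fun _ => mem_top _)
      rw [cl_eq_zero, index_top]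
    by_cases hK : M.normalCore = ⊥
    · exact (cl_prim hM hK (hq M hM.1)).trans (Nat.mul_le_mul_left _
        (Nat.le_of_dvd (Nat.pos_of_ne_zero index_ne_zero_of_finite) (index_dvd_of_le hSM)))
    have h1 := cl_le_add_quot M.normalCore
    have h2 := ClTr.quot M (clTr_aux n _ (by
      have e1 := M.normalCore.card_mul_index
      have e2 : 1 < Nat.card M.normalCore := (one_lt_card_iff_ne_bot _).2 hK
      have e3 : 0 < M.normalCore.index := Nat.pos_of_ne_zero index_ne_zero_of_finite
      show M.normalCore.index ≤ n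
      nlinarith))
    have := faithful_quot h0 M.normalCore
    have h3 := cl_orbits (G := M.normalCore) (Ω := G ⧸ S)
      (hq _ fun e => hM.1 (eq_top_iff.2 (e ▸ normalCore_le M)))
    have h4 := card_le_card_orbits (G := M.normalCore) (quotientMapOfLE hSM) (fun x => by
      obtain ⟨g, rfl⟩ := QuotientGroup.mk_surjective x
      exact ⟨g, rfl⟩) fun k x => by
        obtain ⟨g, rfl⟩ := QuotientGroup.mk_surjective x
        show (((k : G) * g : G) : G ⧸ M) = g
        refine QuotientGroup.eq.2 ?_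
        have := inv_mem (k.2 g⁻¹)
        simpa [mul_assoc] using this
    rw [index] at h2 ⊢
    omega

theorem cl_bound {G : Type u} [Group G] [Finite G] {Ω : Type*} [Finite Ω] [MulAction G Ω]
    [FaithfulSMul G Ω] : 3 * cl G + 4 * Nat.card (orbitRel.Quotient G Ω) ≤ 4 * Nat.card Ω :=
  cl_orbits fun _ _ => clTr_aux _ _ le_rfl

end H25
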