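import Mathlib

/-! Bounding an involution centralizer with a self-centralizing subgroup of order three modulo the involution. -/

set_option autoImplicit false
open Subgroup

namespace H25.Cs

theorem s3 : ∀ a : Equiv.Perm (Fin 3), a * a = 1 → ∀ e : Equiv.Perm (Fin 3), e ^ 3 = 1 →
    a * (e * a * e⁻¹) * (e⁻¹ * a * e) = 1 → a = 1 := by decide +kernel

variable {Q : Type*} [Group Q] [Finite Q]

theorem mod3 (N : Subgroup Q) [hN : N.Normal] {η : Q} (e3 : η ^ 3 = 1) (h : ∀ x ∈ N, Commute x η → x = 1) :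
    Nat.card N % 3 = 1 := by
  classical
  haveI := Fintype.ofFinite N
  haveI : Fact (Nat.Prime 3) := ⟨by norm_num⟩
  have := Equiv.Perm.card_fixedPoints_modEq (p := 3) (n := 1)
    (f := (fun n => ⟨η * n.1 * η⁻¹, hN.conj_mem _ n.2 η⟩ : Function.End N)) (by
      refine funext fun n => Subtype.ext ?_
      change η * (η * (η * n.1 * η⁻¹) * η⁻¹) * η⁻¹ = n.1
      calc _ = η ^ 3 * n.1 * (η ^ 3)⁻¹ := by simp [pow_succ, mul_assoc]
        _ = _ := by simp [e3])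
  rw [Nat.card_eq_fintype_card]
  refine this.trans (congrArg (· % 3) (Fintype.card_eq_one_iff.2 ⟨⟨1, Subtype.ext (by simp)⟩, fun x =>
    Subtype.ext (Subtype.ext (h _ x.1.2 (mul_inv_eq_iff_eq_mul.1 (congrArg Subtype.val x.2)).symm))⟩))

theorem two (N : Subgroup Q) [N.Normal] [Group.IsNilpotent N] (h3 : (Nat.card N).Coprime 3) {η ρ ν : Q}
    (e3 : η ^ 3 = 1) (hz : ∀ x, Commute x η → x ∈ zpowers η) (hρ : ρ ∈ N) (r2 : ρ * ρ = 1) (v2 : ν * ν = 1)
    (vy : ν * η * ν = η⁻¹) (hp : ∀ (x : Q) (m : ℕ), m.Coprime 6 → x ^ m = 1 → Commute x ρ → Commute x ν → x = 1) :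
    ∃ k, Nat.card N = 2 ^ k := by
  refine ⟨_, Nat.eq_prime_pow_of_unique_prime_dvd Nat.card_pos.ne' fun {p} pp hd => ?_⟩
  by_contra p2
  haveI := Fact.mk pp
  have p3 : p ≠ 3 := fun e => pp.ne_one (Nat.eq_one_of_dvd_coprimes h3 hd e.dvd)
  have c6 : p.Coprime 6 := Nat.Coprime.mul_right ((Nat.coprime_primes pp Nat.prime_two).2 p2)
    ((Nat.coprime_primes pp Nat.prime_three).2 p3)
  obtain ⟨x, hx⟩ := exists_prime_orderOf_dvd_card' p hd
  obtain ⟨P, hP⟩ := (IsPGroup.of_card (p := p) (n := 1) ((Nat.card_zpowers x).trans (by simpa))).exists_le_sylow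
  obtain ⟨j, -, hj⟩ := (Nat.dvd_prime_pow Nat.prime_two).1 (orderOf_dvd_of_pow_eq_one (x := (⟨ρ, hρ⟩ : N)) (n := 2 ^ 1)
    (Subtype.ext ((sq ρ).trans r2)))
  obtain ⟨T, hT⟩ := (IsPGroup.of_card ((Nat.card_zpowers _).trans hj)).exists_le_sylow
  have nP := Sylow.normal_of_normalizerCondition normalizerCondition_of_isNilpotent P
  have nT := Sylow.normal_of_normalizerCondition normalizerCondition_of_isNilpotent T
  haveI := P.characteristic_of_normal nP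
  let R := (P : Subgroup N).map N.subtype
  have hR : R.Normal := inferInstance
  have vi : ν⁻¹ = ν := inv_eq_of_mul_eq_one_right v2
  have fpf : MonoidHom.FixedPointFree (MulAut.conjNormal (H := R) ν) := fun g hg => by
    obtain ⟨_, u, hu, rfl⟩ := g
    obtain ⟨k, hk⟩ := P.2 ⟨u, hu⟩
    refine Subtype.ext (hp _ (p ^ k) (c6.pow_left k) (congrArg (fun a : P => ((a : N) : Q)) hk) ?_
      (mul_inv_eq_iff_eq_mul.1 (congrArg Subtype.val hg)).symm)
    exact (commute_of_normal_of_disjoint _ _ nP nT (IsPGroup.disjoint_of_ne p 2 p2 _ _ P.2 T.2) u _ hu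
      (hT (mem_zpowers _))).map N.subtype
  have inv := fun g => congrArg Subtype.val (congrFun (fpf.coe_eq_inv_of_involutive fun g => Subtype.ext (by
    simp [vi, ← mul_assoc, v2, mul_assoc _ ν ν])) g)
  have xR : (x : Q) ∈ R := mem_map_of_mem _ (hP (mem_zpowers x))
  have i1 : ν * x * ν⁻¹ = (x : Q)⁻¹ := inv ⟨x, xR⟩
  have i2 : ν * (η * x * η⁻¹) * ν⁻¹ = (η * x * η⁻¹)⁻¹ := inv ⟨_, hR.conj_mem _ xR η⟩
  have c : Commute (x : Q) (η ^ 2) := by
    rw [show ν * (η * x * η⁻¹) * ν⁻¹ = ν * η * ν⁻¹ * (ν * x * ν⁻¹) * (ν * η * ν⁻¹)⁻¹ by group, i1, vi, vy] at i2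
    calc _ = η * (η⁻¹ * (x : Q)⁻¹ * η⁻¹⁻¹)⁻¹ * η := by simp [sq, mul_assoc]
      _ = _ := by rw [i2]; simp [sq, mul_assoc]
  obtain ⟨k, hk⟩ := hz x (by
    have := c.pow_right 2
    rwa [← pow_mul, show 2 * 2 = 3 + 1 from rfl, pow_succ, e3, one_mul] at this)
  have : (x : Q) ^ 3 = 1 := by
    rw [← hk]; simp only [← zpow_natCast, ← zpow_mul, mul_comm k]; rw [zpow_mul, zpow_natCast, e3, one_zpow]
  exact p3 ((Nat.prime_dvd_prime_iff_eq pp Nat.prime_three).1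
    (by rw [← hx, ← orderOf_coe]; exact orderOf_dvd_of_pow_eq_one this))

theorem core {η ρ ν : Q} (e3 : η ^ 3 = 1) (hz : ∀ x, Commute x η → x ∈ zpowers η) (r2 : ρ * ρ = 1) (v2 : ν * ν = 1)
    (vy : ν * η * ν = η⁻¹) (ry : ρ * (η * ρ * η⁻¹) * (η⁻¹ * ρ * η) = 1)
    (hp : ∀ (x : Q) (m : ℕ), m.Coprime 6 → x ^ m = 1 → Commute x ρ → Commute x ν → x = 1)
    (h32 : 32 ∣ Nat.card Q) (h64 : ¬ 64 ∣ Nat.card Q)
    (h : (∃ (N : Subgroup Q) (_ : N.Normal), Group.IsNilpotent N ∧ (Nat.card N).Coprime 3 ∧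
        (Nat.card (Q ⧸ N) = 3 ∨ Nonempty (Q ⧸ N ≃* Equiv.Perm (Fin 3)))) ∨
    (∃ (N : Subgroup Q) (_ : N.Normal), IsMulCommutative N ∧ (∀ n ∈ N, n ^ 2 = 1) ∧
        Nonempty (Q ⧸ N ≃* alternatingGroup (Fin 5))) ∨ Nat.card Q = 168) : Nat.card Q ≤ 96 := by
  rcases h with ⟨N, _, _, h3, h⟩ | ⟨N, _, -, h2, ⟨e⟩⟩ | h
  · let π := QuotientGroup.mk' N
    have a2 : π ρ * π ρ = 1 := by rw [← map_mul, r2, map_one]
    obtain ⟨hρ, hc⟩ : π ρ = 1 ∧ (Nat.card (Q ⧸ N) = 3 ∨ Nat.card (Q ⧸ N) = 6) := by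
      rcases h with h | ⟨⟨e⟩⟩
      · have := pow_card_eq_one' (x := π ρ)
        rw [h, pow_succ, sq, a2, one_mul] at this
        exact ⟨this, .inl h⟩
      · refine ⟨e.injective ?_, .inr (by rw [Nat.card_congr e.toEquiv]; simp [Fintype.card_perm, Nat.factorial])⟩
        rw [map_one]
        refine s3 _ ?_ (e (π η)) ?_ ?_ <;> simp only [← map_mul, ← map_inv, ← map_pow, r2, e3, ry, map_one]
    obtain ⟨k, hk⟩ := two N h3 e3 hz ((QuotientGroup.eq_one_iff ρ).1 hρ) r2 v2 vy hp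
    rw [N.card_eq_card_quotient_mul_card_subgroup, hk] at h64 ⊢
    have k5 : k ≤ 5 := by
      by_contra c
      exact h64 ((pow_dvd_pow 2 (not_le.1 c)).mul_left _)
    rcases hc with hc | hc <;> rw [hc] at h64 ⊢ <;> interval_cases k <;> omega
  · obtain ⟨k, hk⟩ := IsPGroup.iff_card.1 (show IsPGroup 2 N from fun g => ⟨1, Subtype.ext (h2 _ g.2)⟩)
    have := mod3 N e3 fun x hx c => by
      obtain ⟨k, rfl⟩ := hz x c
      have h3 : (η ^ k) ^ 3 = 1 := by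
        simp only [← zpow_natCast, ← zpow_mul, mul_comm k]; rw [zpow_mul, zpow_natCast, e3, one_zpow]
      rwa [pow_succ, h2 _ hx, one_mul] at h3
    rw [N.card_eq_card_quotient_mul_card_subgroup, hk, Nat.card_congr e.toEquiv,
      show Nat.card (alternatingGroup (Fin 5)) = 60 by rw [nat_card_alternatingGroup]; simp [Nat.factorial]] at h64 h32
    have k5 : k ≤ 5 := by
      by_contra c
      exact h64 ((pow_dvd_pow 2 (not_le.1 c)).mul_left _)
    rw [hk] at this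
    interval_cases k <;> omega
  · omega

omit [Finite Q] in
theorem lift {t a g : Q} (ot : orderOf t = 2) (ct : ∀ g, Commute t g) {m : ℕ} (hm : m.Coprime 2) (ha : a ^ m = 1)
    (h : g * a * g⁻¹ * a⁻¹ ∈ zpowers t) : Commute g a := by
  have c : Commute (g * a * g⁻¹ * a⁻¹) a := by obtain ⟨k, hk⟩ := h; exact hk ▸ (ct a).zpow_left k
  have h1 := c.mul_pow m
  rw [inv_mul_cancel_right, conj_pow, ha, mul_one, mul_inv_cancel, mul_one] at h1
  have := Nat.eq_one_of_dvd_coprimes hm (orderOf_dvd_of_pow_eq_one h1.symm) (ot ▸ orderOf_dvd_of_mem_zpowers h)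
  exact mul_inv_eq_iff_eq_mul.1 (mul_inv_eq_one.1 (orderOf_eq_one_iff.1 this))

end H25.Cs
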