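import Cfsg.Agent.H25.Hup3
import Cfsg.Agent.H25.FCS2

/-! Linear groups regular on non-zero vectors. -/

set_option autoImplicit false

namespace H25

open Module Subgroup

universe u

variable {F : Type*} [Field F] {V : Type u} [AddCommGroup V] [Module F V] [Finite V]

/-- the tautological representation. -/
abbrev linRep (H : Subgroup (V ≃ₗ[F] V)) : H →* End F V :=
  LinearEquiv.automorphismGroup.toLinearMapMonoidHom.comp H.subtype

omit [Finite V] in
theorem linRep_inj (H : Subgroup (V ≃ₗ[F] V)) : Function.Injective (linRep H) :=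
  LinearEquiv.toLinearMap_injective.comp H.subtype_injective

instance finite_linEquiv : Finite (V ≃ₗ[F] V) :=
  Finite.of_injective _ LinearEquiv.toLinearMap_injective

theorem reg_facts {H : Subgroup (V ≃ₗ[F] V)} [Nontrivial V]
    (hreg : ∀ v w : V, v ≠ 0 → w ≠ 0 → ∃! h : H, (h : V ≃ₗ[F] V) v = w) :
    LTrans (linRep H) ∧ (∀ v : V, v ≠ 0 → ∀ g : H, linRep H g v = v → g = 1) ∧ FC H := by
  have h1 : ∀ v : V, v ≠ 0 → ∀ g : H, linRep H g v = v → g = 1 := fun v hv g e =>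
    (hreg v v hv hv).unique e rfl
  exact ⟨fun v w hv hw => (hreg v w hv hw).exists, h1, fc_of_lin H.subtype h1⟩

omit [Finite V] in
theorem nontrivial_of_red {H : Subgroup (V ≃ₗ[F] V)}
    (hI : ∀ A : Subgroup H, A.Normal → IsCyclic A → ∃ W : Submodule F V, W ≠ ⊥ ∧ W ≠ ⊤ ∧
      ∀ a ∈ A, ∀ v ∈ W, ((a : H) : V ≃ₗ[F] V) v ∈ W) :
    Nontrivial V ∧ ∀ A : Subgroup H, A.Normal → IsCyclic A → ¬ Irr (linRep H) A := by
  obtain ⟨W, h1, -⟩ := hI ⊥ inferInstance inferInstance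
  obtain ⟨x, -, hx⟩ := W.exists_mem_ne_zero_of_ne_bot h1
  refine ⟨⟨x, 0, hx⟩, fun A h2 h3 h4 => ?_⟩
  obtain ⟨W, h5, h6, h7⟩ := hI A h2 h3
  exact (h4 W h7).elim h5 h6

variable {G : Type*} [Group G] [Finite G] {σ : G →* End F V}

theorem card_dvd_of_semireg (hf : ∀ v : V, v ≠ 0 → ∀ g : G, σ g v = v → g = 1) {A : Subgroup G}
    {W : Submodule F V} (hW : ∀ a ∈ A, ∀ v ∈ W, σ a v ∈ W) : Nat.card A ∣ Nat.card W - 1 := by
  letI : MulAction G V := MulAction.compHom V σ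
  have := H2.card_dvd_of_free (A := A) ((W : Set V) \ {0})
    (fun a x hx => ⟨hW a a.2 x hx.1, rep_ne_zero σ a hx.2⟩)
    fun a x hx e => Subtype.ext (hf x hx.2 a e)
  rwa [Nat.card_coe_set_eq, Set.ncard_diff_singleton_of_mem W.zero_mem] at this

theorem card_of_reg [Nontrivial V] (ht : LTrans σ)
    (hf : ∀ v : V, v ≠ 0 → ∀ g : G, σ g v = v → g = 1) : Nat.card G = Nat.card V - 1 := by
  refine Nat.dvd_antisymm ?_ ht.card_dvd
  simpa using card_dvd_of_semireg hf (A := ⊤) (W := ⊤) fun _ _ _ _ => trivial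

omit [Finite V] in
theorem Hup.ne_top {K : Type*} [Field K] [Module K V] {A N : Subgroup G} {r : ℕ}
    (h : Hup K σ A N r) (hmax : ∀ B : Subgroup G, B.Normal → IsMulCommutative B → A ≤ B → B = A) :
    N ≠ ⊤ := by
  rintro rfl
  refine h.ncomm ⟨⟨fun a b => Subtype.ext (h.cen b.2 a ?_)⟩⟩
  have h1 : (A ⊔ zpowers (a : G)).Normal := ⟨fun n hn g => by
    rw [← inv_mul_cancel_right (g * n * g⁻¹) n]
    exact mul_mem (mem_sup_left (h.comm n trivial g trivial)) hn⟩
  refine (hmax _ h1 ?_ le_sup_left).le (mem_sup_right (mem_zpowers _))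
  have h2 : A ≤ centralizer (⊤ : Subgroup G) := le_centralizer_iff.1 h.cen
  exact le_centralizer_iff_isMulCommutative.1 (sup_le (h2.trans (centralizer_le le_top))
    (le_centralizer_iff.1 (sup_le (h2.trans (centralizer_le le_top)) (le_centralizer _))))

omit [Finite V] in
theorem Hup.relIndex_le {K : Type*} [Field K] [Module K V] {A N : Subgroup G}
    (h : Hup K σ A N 2) (hf : FC G) : A.relIndex N ≤ 4 := by
  have := h.nA
  obtain ⟨j, -, hj⟩ := h.exists_relIndex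
  obtain ⟨P⟩ : Nonempty (Sylow 2 N) := inferInstance
  have h1 := H3.sup_sylow_eq_top_of_index P hj
  obtain ⟨a, b, hab⟩ : ∃ a b : N, ∀ g ∈ (P : Subgroup N), ∃ k : ℤ, g = a ^ k ∨ g = a ^ k * b := by
    rcases (hf.sub N).pgroup P.isPGroup' with h2 | ⟨-, n, ⟨e⟩⟩
    · obtain ⟨a, ha⟩ := h2.exists_generator
      exact ⟨a, 1, fun g hg => by
        obtain ⟨k, hk⟩ := ha ⟨g, hg⟩
        exact ⟨k, Or.inl (congrArg Subtype.val hk).symm⟩⟩
    · obtain ⟨a, b, -, -, -, -, -, -, h3⟩ := H6.exists_gens_of_quaternion_subgroup e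
      exact ⟨a, b, h3⟩
  let π := QuotientGroup.mk' (A.subgroupOf N)
  have e : ∀ k : ℤ, π a ^ k = 1 ∨ π a ^ k = π a := fun k => by
    have : π a ^ (2 : ℤ) = 1 := by
      rw [zpow_ofNat, ← map_pow]; exact (QuotientGroup.eq_one_iff _).2 (h.pow a a.2)
    obtain ⟨j, rfl | rfl⟩ := Int.even_or_odd' k
    · exact Or.inl (by rw [zpow_mul, this, one_zpow])
    · exact Or.inr (by rw [zpow_add, zpow_mul, this, one_zpow, one_mul, zpow_one])
  refine (Nat.card_le_card_of_surjective ![1, π a, π b, π a * π b] fun t => ?_).trans (by simp)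
  obtain ⟨g, rfl⟩ := QuotientGroup.mk'_surjective _ t
  obtain ⟨x, hx, y, hy, rfl⟩ := mem_sup_of_normal_left.1 (h1.ge (mem_top g))
  rw [map_mul, show π x = 1 from (QuotientGroup.eq_one_iff x).2 hx, one_mul]
  obtain ⟨k, rfl | rfl⟩ := hab y hy <;> rcases e k with e | e
  exacts [⟨0, by rw [map_zpow, e]; rfl⟩, ⟨1, by rw [map_zpow, e]; rfl⟩,
    ⟨2, by rw [map_mul, map_zpow, e, one_mul]; rfl⟩, ⟨3, by rw [map_mul, map_zpow, e]; rfl⟩]

theorem Hup.card_reg {p : ℕ} [hp : Fact p.Prime] [Module (ZMod p) V] [Nontrivial V] {K : Type*}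
    [Field K] [Module K V] [Algebra (ZMod p) K] [IsScalarTower (ZMod p) K V]
    {σ : G →* End (ZMod p) V} {A N : Subgroup G} {r : ℕ} (h : Hup K σ A N r)
    (hmax : ∀ B : Subgroup G, B.Normal → IsMulCommutative B → A ≤ B → B = A)
    (ht : LTrans σ) (hf : ∀ v : V, v ≠ 0 → ∀ g : G, σ g v = v → g = 1) (hF : FC G) :
    Nat.card V = 25 ∨ Nat.card V = 49 ∨ Nat.card V = 121 ∨ Nat.card V = 529 := by
  obtain ⟨rfl, -, h1, ⟨h2, -⟩ | ⟨h2, h3, h4⟩⟩ := h.card_cases ht
  · have := h.relIndex_le hF; omega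
  rcases h4 with rfl | rfl | rfl | rfl | rfl
  · have h5 := card_of_reg ht hf
    have h6 := A.card_mul_index
    rw [← relIndex_mul_index h.le, h2, Nat.dvd_antisymm h1 h.dvd_card, h5, h3] at h6
    exact (h.ne_top hmax (index_eq_one.1 (by omega))).elim
  all_goals simp [h3]

end H25
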