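import Cfsg.Agent.H25.JSet
import Cfsg.Agent.H25.Bochert

/-! Marggraff's theorem: a primitive group with a Jordan set of less than half the degree contains
the alternating group. -/

set_option autoImplicit false

namespace H25

open MulAction SubMulAction Set
open scoped Pointwise

universe u v

section
variable {G α : Type*} [Group G] [MulAction G α]

theorem smul_mem_of_fix_compl {V : Set α} {g : G} (h : ∀ z ∉ V, g • z = z) {x : α} (hx : x ∈ V) :
    g • x ∈ V := by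
  by_contra hc
  have e : g • x = x := MulAction.injective g (h _ hc)
  exact hc (by rwa [e])

theorem exists_smul_set_eq [Finite α] {k : ℕ} (h : IsMultiplyPretransitive G α k)
    (hk : k ≤ Nat.card α) {A B : Set α} (hA : A.ncard ≤ k) (hAB : A.ncard = B.ncard) :
    ∃ g : G, g • A = B := by
  have := Fintype.ofFinite A
  obtain ⟨e⟩ : Nonempty (A ≃ B) := Finite.card_eq.1 hAB
  obtain ⟨g, hg⟩ := exists_smul_eq_of_multi_card_le h hk (ι := A)
    (by rwa [← Nat.card_eq_fintype_card]) (fun x => x) (fun x => e x) Subtype.val_injective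
    (Subtype.val_injective.comp e.injective)
  refine ⟨g, eq_of_subset_of_ncard_le ?_ (by rw [ncard_smul_set, hAB])⟩
  rintro _ ⟨x, hx, rfl⟩
  show g • x ∈ B
  rw [hg ⟨x, hx⟩]
  exact (e ⟨x, hx⟩).2

theorem JSet.conj [Finite α] : ∀ (N : ℕ) (V A B : Set α), V.ncard ≤ N → JSet G A → JSet G B →
    A.ncard = B.ncard → V.ncard < 2 * A.ncard → A ⊆ V → B ⊆ V →
    ∃ h : G, (∀ z ∉ V, h • z = z) ∧ h • A = B
  | 0, V, A, B, h, _, _, _, h1, h2, _ => by have := ncard_le_ncard h2; omega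
  | N + 1, V, A, B, h, hA, hB, e, h1, h2, h3 => by
    by_cases hAB : A = B
    · exact ⟨1, fun _ _ => one_smul _ _, by rw [one_smul, hAB]⟩
    have hU := ncard_le_ncard (union_subset h2 h3)
    obtain ⟨c, hc⟩ : (A ∩ B).Nonempty := by
      rw [← ncard_pos]
      have := ncard_union_add_ncard_inter A B
      omega
    obtain ⟨a, ha, ha'⟩ : ∃ a ∈ A, a ∉ B := by
      by_contra hc
      push Not at hc
      exact hAB (eq_of_subset_of_ncard_le hc e.ge)
    obtain ⟨b, hb, hb'⟩ : ∃ b ∈ B, b ∉ A := by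
      by_contra hc
      push Not at hc
      exact hAB (eq_of_subset_of_ncard_le hc e.le).symm
    obtain ⟨g, hg, hg'⟩ := hA.union hB hc.1 hc.2 b (Or.inr hb) a (Or.inl ha)
    have hlt := ncard_sdiff_singleton_lt_of_mem (s := A ∪ B) (Or.inl ha)
    obtain ⟨k, hk, hk'⟩ := JSet.conj N ((A ∪ B) \ {a}) (g • A) B (by omega) (hA.smul g) hB
      (by rw [ncard_smul_set, e]) (by rw [ncard_smul_set]; omega) (by
        rintro _ ⟨x, hx, rfl⟩
        exact ⟨smul_mem_of_fix_compl hg (Or.inl hx), fun h' =>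
          hb' (MulAction.injective g (h'.trans hg'.symm) ▸ hx)⟩)
      fun x hx => ⟨Or.inr hx, fun h' => ha' (h' ▸ hx)⟩
    refine ⟨k * g, fun z hz => ?_, by rw [mul_smul, hk']⟩
    have hz' : z ∉ A ∪ B := fun h' => hz (union_subset h2 h3 h')
    rw [mul_smul, hg z hz', hk z fun h' => hz' h'.1]

theorem multi_of_alt_le [Fintype α] [DecidableEq α]
    (h : alternatingGroup α ≤ (toPermHom G α).range) :
    IsMultiplyPretransitive G α (Nat.card α - 2) := by
  have := alternatingGroup.isMultiplyPretransitive α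
  rw [multi_iff_fun] at this ⊢
  intro x y hx hy
  obtain ⟨g, hg⟩ := this x y hx hy
  obtain ⟨g', e⟩ := h g.2
  exact ⟨g', fun i => by rw [← hg i]; exact DFunLike.congr_fun e (x i)⟩

theorem alt_le_of_multi [Fintype α] [DecidableEq α]
    (h : IsMultiplyPretransitive G α (Nat.card α - 2)) :
    alternatingGroup α ≤ (toPermHom G α).range := by
  refine IsMultiplyPretransitive.alternatingGroup_le α _ ?_
  rw [multi_iff_fun] at h ⊢
  intro x y hx hy
  obtain ⟨g, hg⟩ := h x y hx hy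
  exact ⟨⟨_, g, rfl⟩, hg⟩

theorem JSet.multi_of_half [Finite α] {Γ : Set α} (h : JSet G Γ) (h1 : 1 < Γ.ncard) {k : ℕ}
    (hG : IsPreprimitive G α) (hk : IsMultiplyPretransitive G α k) (h2 : Nat.card α ≤ 2 * k + 1)
    (h3 : k + Γ.ncard ≤ Nat.card α) : IsMultiplyPretransitive G α (Nat.card α - 2) := by
  classical
  have := Fintype.ofFinite α
  refine multi_of_alt_le ?_
  by_contra hA
  obtain ⟨B, hB, hB'⟩ := exists_small_base (G := (toPermHom G α).range) (prim_range hG)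
    (fun h' => hA fun x hx => by obtain ⟨y, rfl⟩ := h' hx; exact y.2)
  rw [← Nat.card_eq_fintype_card] at hB
  have e := ncard_add_ncard_compl Γ
  obtain ⟨A, hA1, hA2⟩ := exists_subset_card_eq (s := Γᶜ) (n := B.card) (by omega)
  obtain ⟨g, hg⟩ := exists_smul_set_eq hk (by omega) (A := A) (B := B) (by omega) (by simpa)
  obtain ⟨x, hx, y, hy, hxy⟩ := (one_lt_ncard (s := Γ)).1 h1
  obtain ⟨k, hk1, hk2⟩ := h x hx y hy
  have := hB' ⟨_, g * k * g⁻¹, rfl⟩ fun z hz => by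
    obtain ⟨w, hw, rfl⟩ : z ∈ g • A := hg ▸ hz
    show (g * k * g⁻¹) • g • w = g • w
    rw [mul_smul, inv_smul_smul, mul_smul, hk1 w (hA1 hw)]
  have h4 : (g * k * g⁻¹) • g • x = g • x := DFunLike.congr_fun (congrArg Subtype.val this) (g • x)
  rw [mul_smul, inv_smul_smul, mul_smul, hk2] at h4
  exact hxy (MulAction.injective g h4).symm

/-- A pair of overlapping Jordan sets of size `s` with minimal difference. -/
theorem JSet.exists_min [Finite α] {Γ₀ : Set α} (h : JSet G Γ₀) (h1 : 1 < Γ₀.ncard)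
    (h2 : IsMultiplyPretransitive G α 2) (h3 : Γ₀.ncard < Nat.card α) :
    ∃ Γ C : Set α, JSet G Γ ∧ Γ.ncard = Γ₀.ncard ∧ C ⊆ Γᶜ ∧ 0 < C.ncard ∧ 2 * C.ncard ≤ Γ.ncard ∧
      JSet G (Γ ∪ C) ∧ ∀ A B V : Set α, JSet G A → JSet G B → A.ncard = Γ.ncard →
        B.ncard = Γ.ncard → A ⊆ V → B ⊆ V → V.ncard < Γ.ncard + C.ncard → A = B := by
  obtain ⟨⟨Γ, T⟩, ⟨hΓ, hT, e1, e2, hne, c, hc⟩, hmin⟩ := exists_min_image
    {p : Set α × Set α | JSet G p.1 ∧ JSet G p.2 ∧ p.1.ncard = Γ₀.ncard ∧ p.2.ncard = Γ₀.ncard ∧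
      p.1 ≠ p.2 ∧ (p.1 ∩ p.2).Nonempty} (fun p => (p.2 \ p.1).ncard) (toFinite _) (by
    obtain ⟨x, hx, y, hy, hxy⟩ := (one_lt_ncard (s := Γ₀)).1 h1
    obtain ⟨z, hz⟩ : ∃ z, z ∉ Γ₀ := by
      by_contra hc
      push Not at hc
      rw [eq_univ_of_forall hc, ncard_univ] at h3
      omega
    rw [is_two_pretransitive_iff] at h2
    obtain ⟨g, g1, g2⟩ := h2 (c := x) (d := z) hxy fun e => hz (e ▸ hx)
    exact ⟨(Γ₀, g • Γ₀), h, h.smul g, rfl, ncard_smul_set _ _, fun e => hz (by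
      have e' : Γ₀ = g • Γ₀ := e
      rw [e']; exact ⟨y, hy, g2⟩), x, hx, x, hx, g1⟩)
  simp only at hΓ hT e1 e2 hne hc hmin
  have d1 := ncard_inter_add_ncard_sdiff_eq_ncard T Γ
  obtain ⟨y, hy, hy'⟩ : ∃ y ∈ Γ, y ∉ T := by
    by_contra hc
    push Not at hc
    exact hne (eq_of_subset_of_ncard_le hc (by omega))
  obtain ⟨z, hz, hz'⟩ : ∃ z ∈ T, z ∉ Γ := by
    by_contra hc
    push Not at hc
    exact hne (eq_of_subset_of_ncard_le hc (by omega)).symm
  have hj : 2 * (T \ Γ).ncard ≤ Γ.ncard := by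
    obtain ⟨k, hk, hk'⟩ := hΓ c hc.1 y hy
    have := hmin (T, k • T) ⟨hT, hT.smul k, e2, by rw [ncard_smul_set, e2], fun e => hy' (by
      have e' : T = k • T := e
      rw [e']; exact ⟨c, hc.2, hk'⟩), z, hz, z, hz, hk z hz'⟩
    have h4 : (k • T \ T).ncard ≤ (k • (T ∩ Γ)).ncard := ncard_le_ncard (by
      rintro _ ⟨⟨w, hw, rfl⟩, hw'⟩
      exact ⟨w, ⟨hw, by_contra fun h' => hw' (by simpa [hk w h'] using hw)⟩, rfl⟩)
    rw [ncard_smul_set] at h4
    simp only at this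
    omega
  refine ⟨Γ, T \ Γ, hΓ, e1, fun x hx => hx.2, (ncard_pos).2 ⟨z, hz, hz'⟩, hj, ?_, ?_⟩
  · rw [union_diff_self]
    exact hΓ.union hT hc.1 hc.2
  · intro A B V hA hB eA eB sA sB hV
    by_contra hAB
    have u1 := ncard_le_ncard (union_subset sA sB)
    have u2 := ncard_union_add_ncard_inter A B
    have u3 := ncard_inter_add_ncard_sdiff_eq_ncard B A
    rw [inter_comm] at u3
    have := hmin (A, B) ⟨hA, hB, eA.trans e1, eB.trans e1, hAB,
      (ncard_pos).1 (by simp only; omega)⟩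
    simp only at this
    omega

theorem JSet.stab_jset [Finite α] {Γ C : Set α} (hΓ : JSet G Γ) (hC : C ⊆ Γᶜ) (hU : JSet G (Γ ∪ C))
    (hu : ∀ A B V : Set α, JSet G A → JSet G B → A.ncard = Γ.ncard →
      B.ncard = Γ.ncard → A ⊆ V → B ⊆ V → V.ncard < Γ.ncard + C.ncard → A = B) :
    JSet (stabilizer G Γᶜ) {x : (Γᶜ : Set α) | (x : α) ∈ C} := by
  intro x hx y hy
  obtain ⟨g, hg, hg'⟩ := hU x (Or.inr hx) y (Or.inr hy)
  have e : g • Γ = Γ := by
    refine hu _ _ ((Γ ∪ C) \ {(y : α)}) (hΓ.smul g) hΓ (ncard_smul_set _ _) rfl ?_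
      (fun z hz => ⟨Or.inl hz, fun h => y.2 (h ▸ hz)⟩) ?_
    · rintro _ ⟨z, hz, rfl⟩
      exact ⟨smul_mem_of_fix_compl hg (Or.inl hz), fun h =>
        x.2 (MulAction.injective g (h.trans hg'.symm) ▸ hz)⟩
    · exact (ncard_sdiff_singleton_lt_of_mem (s := Γ ∪ C) (Or.inr hy)).trans_le (ncard_union_le _ _)
  refine ⟨⟨g, by rw [mem_stabilizer_iff, smul_set_compl, e]⟩, fun z hz => Subtype.ext ?_,
    Subtype.ext hg'⟩
  exact hg z fun h => h.elim z.2 hz

theorem JSet.stab_multi [Finite α] {Γ : Set α} (hΓ : JSet G Γ) {k : ℕ}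
    (hk : IsMultiplyPretransitive G α k) (h : Nat.card α < 2 * Γ.ncard + k) :
    IsMultiplyPretransitive (stabilizer G Γᶜ) (Γᶜ : Set α) k := by
  rw [multi_iff_fun] at hk ⊢
  intro x y hx hy
  obtain ⟨g, hg⟩ := hk (fun i => x i) (fun i => y i) (Subtype.val_injective.comp hx)
    (Subtype.val_injective.comp hy)
  have e1 := ncard_add_ncard_compl (range fun i => (y i : α))
  rw [ncard_range_of_injective (f := fun i => (y i : α)) (Subtype.val_injective.comp hy),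
    Nat.card_eq_fintype_card,
    Fintype.card_fin] at e1
  obtain ⟨c, hc, hc'⟩ := JSet.conj _ (range fun i => (y i : α))ᶜ (g • Γ) Γ le_rfl (hΓ.smul g) hΓ
    (ncard_smul_set _ _) (by rw [ncard_smul_set]; omega) (by
      rintro _ ⟨z, hz, rfl⟩ ⟨i, hi⟩
      exact (x i).2 (MulAction.injective g ((hg i).trans hi) ▸ hz))
    (by rintro _ hz ⟨i, rfl⟩; exact (y i).2 hz)
  refine ⟨⟨c * g, by rw [mem_stabilizer_iff, smul_set_compl, mul_smul, hc']⟩, fun i =>
    Subtype.ext ?_⟩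
  show (c * g) • (x i : α) = y i
  rw [mul_smul, hg, hc _ (not_not.2 ⟨i, rfl⟩)]

theorem JSet.multi_of_stab [Finite α] {Γ C : Set α} (hΓ : JSet G Γ) (h0 : Γ.Nonempty) (hC : C ⊆ Γᶜ)
    (hC0 : 0 < C.ncard) (hU : JSet G (Γ ∪ C))
    (hk : IsMultiplyPretransitive (stabilizer G Γᶜ) (Γᶜ : Set α) C.ncard) :
    ∀ k, k + C.ncard ≤ Γᶜ.ncard + 1 → IsMultiplyPretransitive G α k := by
  classical
  obtain ⟨γ, hγ⟩ := h0
  have h4 : ∀ C' ⊆ Γᶜ, C'.ncard = C.ncard → JSet G (Γ ∪ C') := by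
    intro C' h1 h2
    have e : ∀ D ⊆ Γᶜ, {x : (Γᶜ : Set α) | (x : α) ∈ D}.ncard = D.ncard := fun D hD => by
      rw [ncard_subtype, setOf_mem_eq, inter_eq_left.2 hD]
    obtain ⟨g, hg⟩ := exists_smul_set_eq hk (ncard_le_ncard hC)
      (A := {x : (Γᶜ : Set α) | (x : α) ∈ C}) (B := {x : (Γᶜ : Set α) | (x : α) ∈ C'})
      (e C hC).le (by rw [e C hC, e C' h1, h2])
    have e1 : (g : G) • Γ = Γ := compl_injective (by rw [← smul_set_compl]; exact g.2)
    have e2 : (g : G) • C = C' := by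
      refine eq_of_subset_of_ncard_le ?_ (by rw [ncard_smul_set, h2])
      rintro _ ⟨x, hx, rfl⟩
      exact hg.le ⟨⟨x, hC hx⟩, hx, rfl⟩
    have := hU.smul (g : G)
    rwa [smul_set_union, e1, e2] at this
  have h5 : ∀ A ⊆ Γᶜ, A.ncard + C.ncard ≤ Γᶜ.ncard → JSet G Aᶜ := by
    intro A hA hA'
    have key : ∀ x ∉ A, ∃ g : G, (∀ z ∈ A, g • z = z) ∧ g • x = γ := by
      intro x hx
      by_cases hxΓ : x ∈ Γ
      · obtain ⟨g, hg, hg'⟩ := hΓ x hxΓ γ hγ
        exact ⟨g, fun z hz => hg z (hA hz), hg'⟩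
      obtain ⟨C', h1, h2, h3⟩ := exists_subsuperset_card_eq (s := {x}) (t := Γᶜ \ A) (n := C.ncard)
        (singleton_subset_iff.2 ⟨hxΓ, hx⟩) (by rw [ncard_singleton]; omega)
        (by rw [ncard_sdiff hA]; omega)
      obtain ⟨g, hg, hg'⟩ := h4 C' (h2.trans diff_subset) h3 x (Or.inr (h1 rfl)) γ (Or.inl hγ)
      exact ⟨g, fun z hz => hg z fun h => h.elim (hA hz) fun h => (h2 h).2 hz, hg'⟩
    intro x hx y hy
    obtain ⟨g, hg, hg'⟩ := key x hx
    obtain ⟨k, hk, hk'⟩ := key y hy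
    refine ⟨k⁻¹ * g, fun z hz => ?_, by rw [mul_smul, hg', ← hk', inv_smul_smul]⟩
    rw [mul_smul, hg z (not_not.1 hz), inv_smul_eq_iff, hk z (not_not.1 hz)]
  intro k
  induction k with
  | zero => exact fun _ => is_zero_pretransitive'
  | succ k ih =>
    intro hk'
    refine multi_succ_of_fix (ih (by omega)) fun s hs a b ha hb => ?_
    obtain ⟨A, hA1, hA2⟩ := exists_subset_card_eq (s := Γᶜ) (n := k) (by omega)
    obtain ⟨g, hg⟩ := exists_smul_set_eq (ih (by omega))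
      (by have := ncard_le_card Γᶜ; omega) (A := A) (B := s) hA2.le (by simp [hA2, hs])
    have := (h5 A hA1 (by omega)).smul g
    rw [smul_set_compl, hg] at this
    obtain ⟨c, hc, hc'⟩ := this a ha b hb
    exact ⟨c, fun x hx => hc x (not_not.2 hx), hc'⟩

theorem JSet.steiner_bound [Finite α] {Γ : Set α} (hΓ : JSet G Γ) (h0 : Γ.Nonempty) {j t : ℕ}
    (ht : t + j = Γᶜ.ncard + 1) (hj : 0 < j) (hk : IsMultiplyPretransitive G α t)
    (hu : ∀ A B V : Set α, JSet G A → JSet G B → A.ncard = Γ.ncard →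
      B.ncard = Γ.ncard → A ⊆ V → B ⊆ V → V.ncard < Γ.ncard + j → A = B) :
    t * (j - 1) < Γ.ncard := by
  classical
  obtain ⟨δ, hδ⟩ := h0
  have e0 := ncard_add_ncard_compl Γ
  obtain ⟨X, hX, hXt⟩ := exists_subset_card_eq (s := Γᶜ) (n := t) (by omega)
  have hu' : ∀ A B Y : Set α, JSet G A → JSet G B → A.ncard = Γ.ncard →
      B.ncard = Γ.ncard → Y ⊆ Aᶜ → Y ⊆ Bᶜ → Y.ncard = t → A = B := fun A B Y h1 h2 h3 h4 h5 h6 h7 =>
    hu A B Yᶜ h1 h2 h3 h4 (subset_compl_comm.1 h5) (subset_compl_comm.1 h6) (by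
      have := ncard_add_ncard_compl Y; omega)
  have hins : ∀ x ∈ X, ∀ z ∉ X, (insert z (X \ {x})).ncard = t := fun x hx z hz =>
    (ncard_exchange hz hx).trans hXt
  have hδX : δ ∉ X := fun h => hX h hδ
  have : ∀ x : X, ∃ T : Set α, JSet G T ∧ T.ncard = Γ.ncard ∧ insert δ (X \ {(x : α)}) ⊆ Tᶜ := by
    intro x
    obtain ⟨g, hg⟩ := exists_smul_set_eq hk (by omega) hXt.le (hXt.trans (hins x x.2 δ hδX).symm)
    exact ⟨g • Γ, hΓ.smul g, ncard_smul_set _ _, by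
      rw [← hg, ← smul_set_compl]; exact smul_set_mono hX⟩
  choose T hT1 hT2 hT3 using this
  have hne : ∀ x, T x ≠ Γ := fun x e => hT3 x (mem_insert _ _) (e ▸ hδ)
  have hxT : ∀ x : X, (x : α) ∈ T x := fun x => by
    by_contra h
    refine hne x (hu' _ _ X (hT1 x) hΓ (hT2 x) rfl (fun z hz => ?_) hX hXt)
    by_cases e : z = x
    · rwa [e]
    · exact hT3 x (Or.inr ⟨hz, e⟩)
  let D : X → Set α := fun x => (T x)ᶜ \ insert δ (X \ {(x : α)})
  have hD : ∀ x, (D x).ncard = j - 1 := fun x => by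
    have := ncard_add_ncard_compl (T x)
    rw [ncard_sdiff (hT3 x), hins x x.2 δ hδX]
    have := hT2 x
    omega
  have hDX : ∀ x, ∀ z ∈ D x, z ∉ X := fun x z hz h =>
    hz.2 (Or.inr ⟨h, fun e => hz.1 (e ▸ hxT x)⟩)
  have hDΓ : ∀ x, D x ⊆ Γ \ {δ} := fun x z hz => by
    refine ⟨by_contra fun h => hne x (hu' _ _ _ (hT1 x) hΓ (hT2 x) rfl ?_ ?_
      (hins x x.2 z (hDX x z hz))), fun e => hz.2 (Or.inl e)⟩
    · exact insert_subset hz.1 fun w hw => hT3 x (Or.inr hw)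
    · exact insert_subset h fun w hw => hX hw.1
  have := Fintype.ofFinite X
  have hc : Nat.card (Σ x : X, D x) ≤ Nat.card (Γ \ {δ} : Set α) := by
    refine Nat.card_le_card_of_injective (fun p => ⟨p.2, hDΓ _ p.2.2⟩) ?_
    rintro ⟨x, z, hz⟩ ⟨y, z', hz'⟩ e
    obtain rfl : z = z' := congrArg Subtype.val e
    obtain rfl : x = y := by
      by_contra hxy
      have hxy' : (y : α) ≠ x := fun e => hxy (Subtype.ext e.symm)
      have e1 := hu' (T x) (T y) (insert z (insert δ (X \ {(x : α)}) \ {(y : α)})) (hT1 x) (hT1 y)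
        (hT2 x) (hT2 y) (insert_subset hz.1 fun w hw => hT3 x hw.1)
        (insert_subset hz'.1 fun w hw => hT3 y (hw.1.imp_right fun h => ⟨h.1, hw.2⟩))
        ((ncard_exchange hz.2 (Or.inr ⟨y.2, hxy'⟩)).trans (hins x x.2 δ hδX))
      exact hT3 x (Or.inr ⟨y.2, hxy'⟩) (e1 ▸ hxT y)
    rfl
  rw [Nat.card_sigma, Finset.sum_congr rfl (g := fun _ => j - 1) fun x _ => (Nat.card_coe_set_eq _).trans (hD x),
    Finset.sum_const, Finset.card_univ, ← Nat.card_eq_fintype_card, smul_eq_mul,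
    Nat.card_coe_set_eq, hXt, Nat.card_coe_set_eq] at hc
  exact hc.trans_lt (ncard_sdiff_singleton_lt_of_mem hδ)

end

theorem JSet.marggraff (n : ℕ) : ∀ {G : Type u} {α : Type v} [Group G] [Finite G] [MulAction G α]
    [Finite α] {Γ : Set α}, Nat.card α = n → JSet G Γ → IsPreprimitive G α → 1 < Γ.ncard →
    2 * Γ.ncard < n → IsMultiplyPretransitive G α (n - 2) := by
  induction n using Nat.strong_induction_on with
  | _ n ih =>
  intro G α _ _ _ _ Γ₀ hn h hG h1 h2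
  have h2t := h.two_trans hG h1 (by omega)
  by_cases hlt : 2 * Γ₀.ncard + 1 < n
  · obtain ⟨a, ha⟩ : ∃ a, a ∉ Γ₀ := by
      by_contra hc
      push Not at hc
      rw [eq_univ_of_forall hc, ncard_univ] at h2
      omega
    have hcard := nat_card_ofStabilizer_add_one_eq G a
    rw [show n - 2 = (n - 1 - 2).succ by omega, ofStabilizer.isMultiplyPretransitive (a := a)]
    exact ih (n - 1) (by omega) (by omega) (h.ofStab ha) (h.stab_prim h2t h1 (by omega) a)
      (by rwa [ncard_ofStab ha]) (by rw [ncard_ofStab ha]; omega)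
  obtain ⟨Γ, C, hΓ, e, hC, hC0, hj, hU, hu⟩ := h.exists_min h1 h2t (by omega)
  have e0 := ncard_add_ncard_compl Γ
  have h0 : Γ.Nonempty := (ncard_pos).1 (by omega)
  have hs2 := hΓ.stab_multi h2t (by omega)
  have hcF : Nat.card (Γᶜ : Set α) = Γᶜ.ncard := rfl
  by_cases hj1 : C.ncard = 1
  · have := hΓ.multi_of_stab h0 hC hC0 hU (isMultiplyPretransitive_of_le (n := 2) (by omega)
      (by omega)) Γ.ncard (by omega)
    exact hn ▸ hΓ.multi_of_half (by omega) hG this (by omega) (by omega)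
  exfalso
  have e1 : {x : (Γᶜ : Set α) | (x : α) ∈ C}.ncard = C.ncard := by
    rw [ncard_subtype, setOf_mem_eq, inter_eq_left.2 hC]
  have h3 := ih _ (by omega) hcF (hΓ.stab_jset hC hU hu) (isPreprimitive_of_is_two_pretransitive hs2)
    (by omega) (by omega)
  have h4 := hΓ.multi_of_stab h0 hC hC0 hU (isMultiplyPretransitive_of_le (n := Γᶜ.ncard - 2)
    (by omega) (by omega)) (Γᶜ.ncard + 1 - C.ncard) (by omega)
  have h5 := hΓ.steiner_bound h0 (by omega) hC0 h4 hu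
  obtain ⟨j, hj'⟩ : ∃ j, C.ncard = j + 2 := ⟨C.ncard - 2, by omega⟩
  obtain ⟨t, ht⟩ : ∃ t, Γ.ncard = t + j + 1 := ⟨Γ.ncard - j - 1, by omega⟩
  rw [show Γᶜ.ncard + 1 - C.ncard = t + 1 by omega, show C.ncard - 1 = j + 1 by omega] at h5
  nlinarith

end H25
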