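import Cfsg.Agent.H25.ON6
import Cfsg.Agent.H25.Fix
import Cfsg.Agent.H1.Fitting
import Cfsg.Agent.S0035
import Cfsg.Agent.S4252

/-! Doubly transitive symmetric designs with a non-trivial automorphism fixing a block
pointwise. -/

set_option autoImplicit false

namespace H25

open MulAction Subgroup Finset

variable {G Ω Y : Type*} [Group G] [MulAction G Ω] [MulAction G Y]

theorem ncard_two {A C : Type*} [MulAction G A] [MulAction G C] [Finite C]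
    (h2 : IsMultiplyPretransitive G A 2) (Φ : A → A → Set C)
    (hΦ : ∀ (g : G) a b c, c ∈ Φ a b → g • c ∈ Φ (g • a) (g • b)) {a b a' b' : A} (h : a ≠ b)
    (h' : a' ≠ b') : (Φ a b).ncard = (Φ a' b').ncard := by
  have key : ∀ {a b a' b' : A}, a ≠ b → a' ≠ b' → (Φ a b).ncard ≤ (Φ a' b').ncard := by
    intro a b a' b' h h'
    obtain ⟨g, rfl, rfl⟩ := is_two_pretransitive_iff.1 h2 h h'
    exact Set.ncard_le_ncard_of_injOn _ (hΦ g a b) (MulAction.injective g).injOn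
  exact le_antisymm (key h h') (key h' h)

structure DS (G : Type*) [Group G] [MulAction G Ω] [MulAction G Y] (B : Y → Set Ω) : Prop where
  twoP : IsMultiplyPretransitive G Ω 2
  twoB : IsMultiplyPretransitive G Y 2
  faith : ∀ g : G, (∀ x : Ω, g • x = x) → g = 1
  faithB : FaithfulSMul G Y
  eqv : ∀ (g : G) {q : Y} {x : Ω}, x ∈ B q → g • x ∈ B (g • q)
  ex : ∀ q, ∃ x ∈ B q, ∃ y ∈ B q, x ≠ y ∧ ∃ u ∉ B q, ∃ v ∉ B q, u ≠ v
  tr : ∀ {q : Y} {x y : Ω}, x ∉ B q → y ∉ B q → ∃ g : G, g • q = q ∧ g • x = y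

variable {B : Y → Set Ω}

namespace DS

variable [Finite G] [Finite Ω] [Finite Y] (h : DS G B)
include h

omit [Finite G] [Finite Ω] [Finite Y] in
theorem eqv' (g : G) {q : Y} {x : Ω} : g • x ∈ B (g • q) ↔ x ∈ B q :=
  ⟨fun e => by simpa using h.eqv g⁻¹ e, h.eqv g⟩

omit [Finite G] [Finite Y] in
theorem lam {q r q' r' : Y} (e : q ≠ r) (e' : q' ≠ r') :
    (B q ∩ B r).ncard = (B q' ∩ B r').ncard :=
  ncard_two h.twoB (fun q r => B q ∩ B r) (fun g _ _ _ hc => ⟨h.eqv g hc.1, h.eqv g hc.2⟩) e e'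

omit [Finite G] [Finite Y] in
theorem dif {q r q' r' : Y} (e : q ≠ r) (e' : q' ≠ r') :
    (B q \ B r).ncard = (B q' \ B r').ncard :=
  ncard_two h.twoB (fun q r => B q \ B r)
    (fun g _ _ _ hc => ⟨h.eqv g hc.1, fun e => hc.2 ((h.eqv' g).1 e)⟩) e e'

omit [Finite G] [Finite Ω] in
theorem mu {x y u v : Ω} (e : x ≠ y) (e' : u ≠ v) :
    {q | x ∈ B q ∧ y ∈ B q}.ncard = {q | u ∈ B q ∧ v ∈ B q}.ncard :=
  ncard_two h.twoP (fun x y => {q | x ∈ B q ∧ y ∈ B q})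
    (fun g _ _ _ hc => ⟨h.eqv g hc.1, h.eqv g hc.2⟩) e e'

omit [Finite G] [Finite Ω] [Finite Y] in
theorem thru (β : Y) {x y : Ω} (e : x ≠ y) : (∃ q, x ∈ B q ∧ y ∈ B q) ∧ ∃ q, x ∈ B q ∧ y ∉ B q := by
  obtain ⟨a, ha, b, hb, hab, u, hu, -⟩ := h.ex β
  obtain ⟨g, rfl, rfl⟩ := is_two_pretransitive_iff.1 h.twoP hab e
  obtain ⟨k, h1, h2⟩ := is_two_pretransitive_iff.1 h.twoP (show a ≠ u by rintro rfl; exact hu ha) e
  exact ⟨⟨_, h.eqv g ha, h.eqv g hb⟩, k • β, h1 ▸ h.eqv k ha, h2 ▸ fun e => hu ((h.eqv' k).1 e)⟩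

omit [Finite G] [Finite Y] in
theorem dif_ne {q r : Y} (e : q ≠ r) : (B q \ B r).Nonempty := by
  obtain ⟨a, ha, -, -, -, u, hu, -⟩ := h.ex q
  obtain ⟨-, s, h1, h2⟩ := h.thru q (show u ≠ a by rintro rfl; exact hu ha)
  rw [← Set.ncard_pos, h.dif e (show s ≠ q by rintro rfl; exact hu h1), Set.ncard_pos]
  exact ⟨u, h1, hu⟩

omit [Finite G] [Finite Y] in
theorem fixb {β : Y} {g : G} (hg : ∀ x ∈ B β, g • x = x) : g • β = β := by
  by_contra e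
  obtain ⟨x, h1, h2⟩ := h.dif_ne (Ne.symm e)
  exact h2 (hg x h1 ▸ h.eqv g h1)

omit [Finite G] [Finite Y] in
theorem fix_of {β γ : Y} {g : G} (hg : ∀ x ∈ B β, g • x = x) {u : Ω} (hu : u ∉ B β) (h1 : u ∈ B γ)
    (h2 : u ∈ B (g • γ)) : g • γ = γ := by
  by_contra e
  have := Set.eq_of_subset_of_ncard_le (s := B γ ∩ B β) (t := B γ ∩ B (g • γ))
    (fun x hx => ⟨hx.1, hg x hx.2 ▸ h.eqv g hx.1⟩)
    (h.lam (Ne.symm e) (by rintro rfl; exact hu h1)).le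
  exact hu (this.ge ⟨h1, h2⟩).2

omit [Finite G] in
theorem fix_le {β : Y} {g : G} (hg : ∀ x ∈ B β, g • x = x) (g1 : g ≠ 1) {y y' : Ω} (hy : y ∉ B β)
    (hy' : y' ∉ B β) (e : g • y = y) (e' : g • y' = y') : y = y' := by
  by_contra hyy
  have key : ∀ {u z : Ω}, u ∉ B β → g • u = u → g • z ≠ z →
      {q | u ∈ B q ∧ z ∈ B q} = {q | z ∈ B q ∧ g • z ∈ B q} := fun {u z} hu e1 e2 =>
    Set.eq_of_subset_of_ncard_le (fun q hq => ⟨hq.2,
      h.fix_of hg hu hq.1 (e1 ▸ h.eqv g hq.1) ▸ h.eqv g hq.2⟩)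
      (h.mu e2.symm (by rintro rfl; exact e2 e1)).le
  obtain ⟨z, hz⟩ : ∃ z : Ω, g • z ≠ z := by
    by_contra hh
    push Not at hh
    exact g1 (h.faith g hh)
  obtain ⟨-, γ, h1, h2⟩ := h.thru β hyy
  obtain ⟨⟨δ, h3⟩, -⟩ := h.thru β (show y ≠ z by rintro rfl; exact hz e)
  have all : ∀ w ∈ B γ, g • w = w := fun w hw => by_contra fun e1 =>
    h2 (((key hy e e1).trans (key hy' e' e1).symm).le ⟨h1, hw⟩).1
  have := Set.eq_of_subset_of_ncard_le (s := B γ \ B β) (t := B δ \ B β) (fun w hw =>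
    ⟨(((key hy e hz).trans (key hw.2 (all w hw.1) hz).symm).le h3).1, hw.2⟩)
    (h.dif (by rintro rfl; exact hy h3.1) (by rintro rfl; exact hy h1)).le
  exact hz (all z (this.ge ⟨h3.2, fun e => hz (hg z e)⟩).1)

omit [Finite G] in
theorem pencil {β γ δ : Y} {g : G} (hg : ∀ x ∈ B β, g • x = x) (hf : ∀ x ∉ B β, g • x ≠ x)
    (hγ : γ ≠ β) (hδ : δ ≠ β) (e : B γ ∩ B β = B δ ∩ B β) (h1 : g • γ = γ) : g • δ = δ := by
  classical
  by_contra h2
  have := Fintype.ofFinite Ω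
  have := Fintype.ofFinite Y
  have hγδ : γ ≠ δ := by rintro rfl; exact h2 h1
  obtain ⟨a, -, b, -, hab, -⟩ := h.ex β
  have cnt : ∀ {q}, q ≠ β → ∑ ε with g • ε = ε, ((B ε ∩ B q) \ B β).ncard =
      (B γ \ B β).ncard * {q | a ∈ B q ∧ b ∈ B q}.ncard := fun {q} hq => by
    rw [h.dif hγ hq, Set.ncard_eq_toFinset_card' (B q \ B β), ← smul_eq_mul, ← sum_const]
    refine (sum_congr rfl fun ε _ => ?_).trans ((sum_card_bipartiteAbove_eq_sum_card_bipartiteBelow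
      (fun ε z => z ∈ B ε)).trans (sum_congr rfl fun z hz => ?_))
    · rw [← Set.ncard_coe_finset]
      congr 1
      ext z
      simp [and_comm, and_assoc, and_left_comm]
    · rw [Set.mem_toFinset] at hz
      rw [← Set.ncard_coe_finset, h.mu hab (hf z hz.2).symm]
      congr 1
      ext ε
      simp only [coe_bipartiteBelow, mem_filter, mem_univ, true_and, Set.mem_setOf_eq]
      exact ⟨fun e => ⟨e.2, e.1 ▸ h.eqv g e.2⟩, fun e => ⟨h.fix_of hg (u := g • z)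
        (fun e1 => hz.2 ((h.eqv' g).1 ((h.fixb hg).symm ▸ e1))) e.2 (h.eqv g e.1), e.1⟩⟩
  have dd : ∀ {ε q}, ((B ε ∩ B q) \ B β).ncard + (B ε ∩ (B q ∩ B β)).ncard = (B ε ∩ B q).ncard :=
    fun {ε q} => by rw [← Set.inter_assoc, add_comm, Set.ncard_inter_add_ncard_diff_eq_ncard]
  have z0 : ((B γ ∩ B δ) \ B β).ncard = 0 := by
    have := dd (ε := γ) (q := δ)
    rw [← e, ← Set.inter_assoc, Set.inter_self, h.lam hγδ hγ] at this
    omega
  refine (sum_lt_sum (fun ε hε => ?_) ⟨γ, by simpa, ?_⟩).ne ((cnt hδ).trans (cnt hγ).symm)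
  · obtain rfl | h3 := eq_or_ne ε γ
    · omega
    have h4 : ε ≠ δ := by rintro rfl; exact h2 (mem_filter.1 hε).2
    have := dd (ε := ε) (q := δ)
    rw [← e, h.lam h4 h3, ← dd] at this
    omega
  · rw [z0, Set.inter_self, Set.ncard_pos]
    exact h.dif_ne hγ

theorem frob {β : Y} {g : G} (hg : ∀ x ∈ B β, g • x = x) (g1 : g ≠ 1) :
    ∃ M : Subgroup G, M ≠ ⊥ ∧
      ∀ a, a ∈ M ↔ (∀ x ∈ B β, a • x = x) ∧ (a = 1 ∨ ∀ x ∉ B β, a • x ≠ x) := by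
  classical
  let N := fixingSubgroup G (B β)
  have mN : ∀ {a}, a ∈ N ↔ ∀ x ∈ B β, a • x = x := mem_fixingSubgroup_iff G
  by_cases h0 : ∀ a ∈ N, a = 1 ∨ ∀ x ∉ B β, a • x ≠ x
  · exact ⟨N, fun e => g1 (e.le (mN.2 hg)), fun a => ⟨fun ha => ⟨mN.1 ha, h0 a ha⟩,
      fun ha => mN.2 ha.1⟩⟩
  push Not at h0
  obtain ⟨a, ha, a1, y, hy, ay⟩ := h0
  have iv : ∀ n ∈ N, ∀ x ∉ B β, n • x ∉ B β := fun n hn x hx e =>
    hx ((h.eqv' n).1 ((h.fixb (mN.1 hn)).symm ▸ e))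
  have tr : ∀ z ∉ B β, z ∈ orbit N y := fun z hz => by
    by_contra h1
    obtain ⟨k, kb, rfl⟩ := h.tr hy hz
    obtain ⟨p, hp, hd⟩ := Nat.exists_prime_and_dvd (mt orderOf_eq_one_iff.1 a1)
    have := Fact.mk hp
    have e := orderOf_pow_orderOf_div (orderOf_pos a).ne' hd
    have key : ∀ (b : G) (u : Ω), b ∈ N → orderOf b = p → u ∉ B β → b • u = u →
        (orbit N y).ncard ≡ (orbit N y ∩ {u}).ncard [MOD p] := fun b u hb e hu bu => by
      convert ncard_modEq_fixed (p := p) (zpowers b) (.of_card (n := 1) (by simp [e])) (orbit N y)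
        (Set.toFinite _) fun q hq x hx => mem_orbit_of_mem_orbit (⟨q, zpowers_le.2 hb hq⟩ : N) hx
      ext x
      refine and_congr_right fun ⟨n, hn⟩ => ⟨?_, fun e1 => h.fix_le (mN.1 hb)
        (by rintro rfl; exact hp.ne_one (e.symm.trans orderOf_one)) (hn ▸ iv n n.2 y hy) hu
        (e1 b (mem_zpowers b)) bu⟩
      rintro rfl q hq
      exact zpowers_le.2 (mem_stabilizer_iff.2 bu) hq
    have m1 := pow_mem ha (orderOf a / p)
    have f1 := (stabilizer G y).pow_mem ay (orderOf a / p)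
    have h2 := key _ y m1 e hy f1
    have h3 := key (k * a ^ (orderOf a / p) * k⁻¹) (k • y) (mN.2 fun x hx => by
      have := conj_fix (g := k) (mN.1 m1 (k⁻¹ • x) ((h.eqv' k).1 (by simpa [kb])))
      simpa using this) (((MulAut.conj k).orderOf_eq _).trans e) hz (conj_fix f1)
    rw [Set.inter_eq_right.2 (by simp), Set.ncard_singleton] at h2
    rw [Set.inter_singleton_eq_empty.2 h1, Set.ncard_empty] at h3
    exact hp.one_lt.ne' (Nat.dvd_one.1 (Nat.modEq_zero_iff_dvd.1 (h2.symm.trans h3)))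
  let S := subMulActionOfInv N {x | x ∉ B β} iv
  have := Fintype.ofFinite S
  obtain ⟨-, -, -, -, -, u, hu, v, hv, huv⟩ := h.ex β
  obtain ⟨h1, h2⟩ := Cfsg.Agent.S4252.result (G := N) (Ω := S) (Fintype.one_lt_card_iff.2
    ⟨⟨u, hu⟩, ⟨v, hv⟩, fun e => huv (congrArg Subtype.val e)⟩) (fun s t => by
      obtain ⟨n, hn⟩ := tr s s.2
      obtain ⟨m, hm⟩ := tr t t.2
      exact ⟨m * n⁻¹, Subtype.ext (show (m * n⁻¹) • s.1 = t by
        rw [← hn, ← hm, mul_smul, inv_smul_smul])⟩)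
    ⟨⟨a, ha⟩, fun e => a1 (congrArg Subtype.val e), ⟨y, hy⟩, Subtype.ext ay⟩
    (fun n n1 s t e1 e2 => Subtype.ext (h.fix_le (mN.1 n.2) (fun e => n1 (Subtype.ext e)) s.2 t.2
      (congrArg Subtype.val e1) (congrArg Subtype.val e2))) ⟨y, hy⟩
  obtain ⟨M, h3, -, h4⟩ := Cfsg.Agent.S0035.result _ h1
  rw [h2] at h3
  refine ⟨M.map N.subtype, fun e => h1.2.1 ?_, fun b => ⟨?_, fun hb => ⟨⟨b, mN.2 hb.1⟩, h3.ge
    (hb.2.imp Subtype.ext fun e w e1 => e w w.2 (congrArg Subtype.val e1)), rfl⟩⟩⟩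
  · rw [map_eq_bot_iff_of_injective _ N.subtype_injective] at e
    simpa [e] using h4.sup_eq_top
  · rintro ⟨b, hb, rfl⟩
    exact ⟨mN.1 b.2, (h3.le hb).imp (congrArg Subtype.val) fun e w hw e1 =>
      e ⟨w, hw⟩ (Subtype.ext e1)⟩

theorem exists_ON {β : Y} {g : G} (hg : ∀ x ∈ B β, g • x = x) (g1 : g ≠ 1) :
    ∃ (N : Y → Subgroup G) (p : ℕ), ON N p ∧
      ∀ q, ∀ a ∈ N q, (∀ x ∈ B q, a • x = x) ∧ (a = 1 ∨ ∀ x ∉ B q, a • x ≠ x) := by
  have := h.faithB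
  let E : Y → G → Prop := fun q a => (∀ x ∈ B q, a • x = x) ∧ (a = 1 ∨ ∀ x ∉ B q, a • x ≠ x)
  have cj : ∀ (k : G) {q a}, E q a → E (k • q) (k * a * k⁻¹) := fun k q a ha =>
    ⟨fun x hx => by simpa using conj_fix (g := k) (ha.1 (k⁻¹ • x) ((h.eqv' k).1 (by simpa))),
      ha.2.imp (by simp) fun e x hx e1 => e (k⁻¹ • x) (fun e2 => hx (by simpa using h.eqv k e2))
        (by simpa [mul_assoc] using conj_fix (g := k⁻¹) e1)⟩
  obtain ⟨M, M1, hM⟩ := h.frob hg g1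
  have cM : ∀ {k a : G}, k • β = β → a ∈ M → k * a * k⁻¹ ∈ M := fun {k a} hk ha =>
    (hM _).2 (hk ▸ cj k ((hM a).1 ha) :)
  have fM : ∀ {a : G}, a ∈ M → a • β = β := fun ha => h.fixb ((hM _).1 ha).1
  have ti : ∀ {q r a}, q ≠ r → E q a → E r a → a = 1 := fun hqr h1 h2 => by
    obtain ⟨x, h3, h4⟩ := h.dif_ne hqr
    exact h2.2.resolve_right fun e => e x h4 (h1.1 x h3)
  have pen : ∀ {q r s a}, E q a → r ≠ q → s ≠ q → B r ∩ B q = B s ∩ B q → a • r = r → a • s = s :=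
    fun ha hr hs e h1 => ha.2.elim (fun e => by rw [e, one_smul]) fun hf =>
      h.pencil ha.1 hf hr hs e h1
  obtain ⟨m, hm, m1⟩ := M.bot_or_exists_ne_one.resolve_left M1
  obtain ⟨-, -, -, -, -, z, hz, -⟩ := h.ex β
  have mz := (((hM m).1 hm).2.resolve_left m1) z hz
  obtain ⟨⟨γ, h1, h2⟩, -⟩ := h.thru β mz.symm
  have hγ : γ ≠ β := by rintro rfl; exact hz h1
  have mγ := h.fix_of ((hM m).1 hm).1 (u := m • z)
    (fun e => hz ((h.eqv' m).1 ((fM hm).symm ▸ e))) h2 (h.eqv m h1)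
  have int : ∀ {v}, v ∈ M → B γ ∩ B β ⊆ B (v • γ) := fun hv x hx =>
    ((hM _).1 hv).1 x hx.2 ▸ h.eqv _ hx.1
  have ne : ∀ {v}, v ∈ M → v • γ ≠ β := fun {v} hv e =>
    hγ (smul_left_cancel v (e.trans (fM hv).symm))
  have nK : ∀ {v a}, v ∈ M → a ∈ M → a • γ = γ → a • v • γ = v • γ := fun hv ha e =>
    pen ((hM _).1 ha) hγ (ne hv) (Set.eq_of_subset_of_ncard_le
      (fun x hx => ⟨int hv hx, hx.2⟩) (h.lam (ne hv) hγ).le) e
  obtain ⟨v, hv, vγ⟩ : ∃ v ∈ M, v • γ ≠ γ := by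
    by_contra hh
    push Not at hh
    refine m1 (FaithfulSMul.eq_of_smul_eq_smul (α := Y) fun q => ?_)
    rw [one_smul]
    obtain rfl | hq := eq_or_ne q β
    · exact fM hm
    obtain ⟨k, k1, rfl⟩ := is_two_pretransitive_iff.1 h.twoB hγ.symm hq.symm
    simpa [mul_assoc] using conj_fix (g := k) (hh _ (cM (fix_inv k1) hm))
  obtain ⟨s, s1, s2⟩ := is_two_pretransitive_iff.1 h.twoB hγ.symm hγ
  let K := Sx (fun _ => M) β γ
  have fE : ∀ a ∈ K, E γ (s * a * s⁻¹) ∧ (s * a * s⁻¹) • β = β := fun a ha =>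
    ⟨s1 ▸ cj s ((hM a).1 ha.1), s2 ▸ conj_fix ha.2⟩
  have ψ : ∀ {f}, E γ f → f • β = β → v⁻¹ * (f * v * f⁻¹) ∈ K := fun {f} hf fb =>
    ⟨mul_mem (inv_mem hv) (cM fb hv), by
      have := pen hf hγ.symm vγ (Set.eq_of_subset_of_ncard_le
        (fun x hx => ⟨int hv hx.symm, hx.2⟩) (h.lam vγ hγ.symm).le) fb
      simp only [mul_smul, fix_inv (h.fixb hf.1), this, inv_smul_smul]⟩
  have cc : ∀ {a b}, a ∈ K → b ∈ K → b * (s * a * s⁻¹) = s * a * s⁻¹ * b := fun {a b} ha hb => by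
    have hγM : ∀ {c}, E γ c → s⁻¹ * c * s ∈ M := fun {c} hc =>
      (hM _).2 (by simpa [← s1] using cj s⁻¹ hc)
    refine cm_eq_one.1 (ti hγ ?_ ((hM _).1 ?_))
    · have := mul_mem (hγM ((show b • γ = γ from hb.2) ▸ cj b (fE a ha).1)) (inv_mem ha.1)
      simpa [← s1, cm, mul_assoc] using cj s ((hM _).1 this)
    · simpa [cm, mul_assoc] using mul_mem hb.1 (cM (fE a ha).2 (inv_mem hb.1))
  have ab : ∀ a ∈ K, ∀ b ∈ K, a * b = b * a := fun a ha b hb => by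
    suffices inj : Function.Injective fun c : K => (⟨_, ψ (fE c c.2).1 (fE c c.2).2⟩ : K) by
      obtain ⟨c, hc⟩ := Finite.injective_iff_surjective.1 inj ⟨b, hb⟩
      replace hc : v⁻¹ * (s * c * s⁻¹ * v * (s * c * s⁻¹)⁻¹) = b := congrArg Subtype.val hc
      have h3 : v * a * v⁻¹ ∈ K := ⟨cM (fM hv) ha.1, by
        simpa using conj_fix (g := v) (nK (inv_mem hv) ha.1 ha.2)⟩
      have h4 := cc c.2 h3
      have h5 := cc c.2 ha
      generalize s * c.1 * s⁻¹ = f at h4 h5 hc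
      subst hc
      calc _ = v⁻¹ * (v * a * v⁻¹ * f) * v * f⁻¹ := by group
        _ = v⁻¹ * (f * v * f⁻¹) * (f * a * f⁻¹) := by rw [h4]; group
        _ = _ := by rw [← h5, mul_inv_cancel_right]
    intro c d e
    by_contra hcd
    have e1 := mul_left_cancel (congrArg Subtype.val e)
    obtain ⟨h3, h4⟩ := fE _ (mul_mem (inv_mem d.2) c.2)
    have h5 : v * (s * (d.1⁻¹ * c) * s⁻¹) * v⁻¹ = s * (d.1⁻¹ * c) * s⁻¹ := by
      calc _ = (s * d * s⁻¹)⁻¹ * (s * d * s⁻¹ * v * (s * d * s⁻¹)⁻¹) * (s * c * s⁻¹) * v⁻¹ := by group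
        _ = _ := by rw [← e1]; group
    have := ti vγ (h5 ▸ cj v h3) h3
    rw [conj_eq_one_iff, inv_mul_eq_one] at this
    exact hcd (Subtype.ext this.symm)
  let F := Cfsg.fittingSubgroup M
  have : (K.subgroupOf M).Normal := ⟨fun a ha k => ⟨cM (fM k.2) ha.1, by
    simpa using conj_fix (g := k.1) (nK (inv_mem k.2) ha.1 ha.2)⟩⟩
  have hKF : K.subgroupOf M ≤ F :=
    H1.le_fitting_of_comm ⟨⟨fun a b => Subtype.ext (Subtype.ext (ab _ a.2 _ b.2))⟩⟩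
  obtain ⟨c, hc, c1⟩ := (bot_or_exists_ne_one _).resolve_left
    (H1.inf_center_ne_bot ((K.subgroupOf M).subgroupOf F) fun e => m1 (congrArg (·.1.1)
      (mem_bot.1 (e.le (x := ⟨⟨m, hm⟩, hKF ⟨hm, mγ⟩⟩) ⟨hm, mγ⟩))))
  obtain ⟨N, p, hN, hle⟩ := H25.exists_ON h.twoB β (((center F).map F.subtype).map M.subtype)
    (fun a ha => fM (map_subtype_le _ ha)) (by
      rintro k hk _ ⟨a, ha, rfl⟩
      exact ⟨_, (characteristic_iff_map_le.1 inferInstance (M.normalizerMonoidHom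
        ⟨k, mem_normalizer_fintype fun n => cM hk⟩)) ⟨a, ha, rfl⟩, rfl⟩) (by
      rintro _ ⟨_, ⟨a, ha, rfl⟩, rfl⟩ _ ⟨_, ⟨b, -, rfl⟩, rfl⟩
      exact congrArg (·.1.1) (mem_center_iff.1 ha b).symm)
    ⟨c, ⟨_, ⟨c, hc.2, rfl⟩, rfl⟩, fun e => c1 (Subtype.ext (Subtype.ext e)), γ, hγ, hc.1.2⟩
  refine ⟨N, p, hN, fun q a ha => ?_⟩
  obtain ⟨k, rfl⟩ := (isPretransitive_of_is_two_pretransitive (h2 := h.twoB)).1 β q
  simpa [mul_assoc] using cj k ((hM _).1 (map_subtype_le _ (hle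
    (by simpa using hN.conj k⁻¹ ha : k⁻¹ * a * k ∈ N β))))

end DS

end H25
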