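import Cfsg.Agent.H25.Marg

/-! Quasiprimitive groups with a small Jordan set. -/

set_option autoImplicit false

namespace H25

open MulAction SubMulAction Set Equiv Equiv.Perm
open scoped Pointwise

theorem alt_le_of_norm_three {Y : Type*} [Fintype Y] [DecidableEq Y] (H : Subgroup (Perm Y))
    (hn : ∀ g : Perm Y, sign g = 1 → ∀ h ∈ H, g * h * g⁻¹ ∈ H) {t : Perm Y} (ht : t.IsThreeCycle)
    (htH : t ∈ H) : alternatingGroup Y ≤ H := by
  rw [← closure_three_cycles_eq_alternating, Subgroup.closure_le]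
  intro c hc
  have hconj : IsConj t c := isConj_iff_cycleType_eq.2 (ht.trans (IsThreeCycle.cycleType hc).symm)
  obtain ⟨g, rfl⟩ := isConj_iff.1 hconj
  rcases Int.units_eq_one_or (sign g) with h | h
  · exact hn g h t htH
  · obtain ⟨a, ha⟩ := ht.isCycle.nonempty_support
    have hnd := ht.nodup_iff_mem_support.2 ha
    have he := ht.eq_swap_mul_swap_iff_mem_support.2 ha
    have hab : a ≠ t a := by
      intro h'
      simp only [List.nodup_cons, List.mem_cons] at hnd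
      exact hnd.1 (Or.inl h')
    set s := swap a (t a) with hs
    set r := swap (t a) (t (t a)) with hr
    have hss : s * s = 1 := swap_mul_self _ _
    have hsi : s⁻¹ = s := swap_inv _ _
    have hri : r⁻¹ = r := swap_inv _ _
    have h1 : s * t⁻¹ * s⁻¹ = t := by
      conv_lhs => rw [he]
      rw [mul_inv_rev, hsi, hri, mul_assoc, mul_assoc, hss, mul_one]
      exact he.symm
    have h2 := hn (g * s) (by rw [map_mul, h, hs, sign_swap hab]; simp) t⁻¹ (inv_mem htH)
    have h3 : g * s * t⁻¹ * (g * s)⁻¹ = g * (s * t⁻¹ * s⁻¹) * g⁻¹ := by group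
    rw [h3, h1] at h2
    exact h2

theorem mem_of_norm_three {X : Type*} [Fintype X] [DecidableEq X] (p : X) (H : Subgroup (Perm X))
    (hn : ∀ g : Perm X, sign g = 1 → g p = p → ∀ h ∈ H, g * h * g⁻¹ ∈ H) {t : Perm X}
    (ht : t.IsThreeCycle) (htp : t p = p) (htH : t ∈ H) {σ : Perm X} (hσ : sign σ = 1)
    (hσp : σ p = p) : σ ∈ H := by
  have key : ∀ f : Perm X, f p = p → ∃ f' : Perm {x // x ≠ p}, ofSubtype f' = f := by
    intro f hf
    have h1 : ∀ x, f x ≠ p ↔ x ≠ p := fun x => by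
      conv_lhs => rw [← hf]
      exact f.injective.ne_iff
    refine ⟨subtypePerm f h1, ofSubtype_subtypePerm h1 fun x hx => ?_⟩
    rintro rfl
    exact hx hf
  obtain ⟨t', rfl⟩ := key t htp
  obtain ⟨σ', rfl⟩ := key σ hσp
  have h := alt_le_of_norm_three (H.comap (ofSubtype (p := fun x => x ≠ p))) (t := t') ?_ ?_ htH
  · exact h (mem_alternatingGroup.2 (by rwa [sign_ofSubtype] at hσ))
  · intro g hg h hh
    rw [Subgroup.mem_comap, map_mul, map_mul, map_inv]
    exact hn _ (by rwa [sign_ofSubtype]) (ofSubtype_apply_of_not_mem _ (by simp)) _ hh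
  · have := ht.cycleType
    rw [cycleType_ofSubtype] at this
    exact this

section
variable {G Ω X : Type*} [Group G] [MulAction G Ω] [MulAction G X]

theorem ncard_preimage_equivar [IsPretransitive G X] (π : Ω → X)
    (hπ : ∀ (g : G) ω, π (g • ω) = g • π ω) (x₀ : X) (S : Set X) :
    (π ⁻¹' S).ncard = S.ncard * (π ⁻¹' {x₀}).ncard := by
  choose c hc using fun x : X => exists_smul_eq G x₀ x
  rw [← Nat.card_coe_set_eq, ← Nat.card_coe_set_eq, ← Nat.card_coe_set_eq, ← Nat.card_prod]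
  symm
  refine Nat.card_congr (Equiv.ofBijective (fun q => ⟨c q.1 • (q.2 : Ω), ?_⟩) ⟨?_, ?_⟩)
  · have : π q.2 = x₀ := q.2.2
    rw [mem_preimage, hπ, this, hc]
    exact q.1.2
  · rintro ⟨⟨x, hx⟩, ⟨u, hu⟩⟩ ⟨⟨y, hy⟩, ⟨v, hv⟩⟩ h
    have h1 : c x • u = c y • v := congrArg Subtype.val h
    have hu' : π u = x₀ := hu
    have hv' : π v = x₀ := hv
    have h2 := congrArg π h1
    rw [hπ, hπ, hu', hv', hc, hc] at h2
    subst h2
    have := smul_left_cancel _ h1
    subst this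
    rfl
  · rintro ⟨w, hw⟩
    refine ⟨(⟨π w, hw⟩, ⟨(c (π w))⁻¹ • w, ?_⟩), Subtype.ext (smul_inv_smul _ _)⟩
    rw [mem_preimage, hπ, mem_singleton_iff, inv_smul_eq_iff, hc]

theorem JSet.inj_of_quasi [Finite G] [Finite Ω] [Finite X] [Nontrivial X] {Γ : Set Ω}
    (hqp : ∀ N : Subgroup G, N.Normal → N ≠ ⊥ → IsPretransitive N Ω) (hJ : JSet G Γ)
    (h1 : 1 < Γ.ncard) (h2 : 2 * Γ.ncard < Nat.card Ω) (hX : IsPreprimitive G X) (π : Ω → X)
    (hπ : ∀ (g : G) ω, π (g • ω) = g • π ω) : Function.Injective π := by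
  classical
  have := Fintype.ofFinite X
  obtain ⟨γ₁, γ₂, hγ₁, hγ₂, hγ⟩ := (one_lt_ncard_iff (toFinite _)).1 h1
  have hsurj : Function.Surjective π := fun x => by
    obtain ⟨g, hg⟩ := exists_smul_eq G (π γ₁) x
    exact ⟨g • γ₁, by rw [hπ, hg]⟩
  have hfaith : ∀ g : G, (∀ x : X, g • x = x) → g = 1 := by
    intro g hg
    by_contra hg1
    have hker : (toPermHom G X).ker ≠ ⊥ := by
      intro h
      apply hg1
      rw [← Subgroup.mem_bot, ← h, MonoidHom.mem_ker]
      exact Equiv.ext hg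
    have htr := hqp _ inferInstance hker
    obtain ⟨x, y, hxy⟩ := exists_pair_ne X
    obtain ⟨u, rfl⟩ := hsurj x
    obtain ⟨v, rfl⟩ := hsurj y
    obtain ⟨⟨k, hk⟩, rfl⟩ := exists_smul_eq (toPermHom G X).ker u v
    apply hxy
    rw [Subgroup.mk_smul, hπ]
    exact (Equiv.congr_fun (MonoidHom.mem_ker.1 hk) (π u)).symm
  have hinj : Function.Injective (toPermHom G X) := by
    rw [injective_iff_map_eq_one]
    exact fun g hg => hfaith g fun x => Equiv.congr_fun hg x
  obtain ⟨k, hk, hk'⟩ := hJ γ₁ hγ₁ γ₂ hγ₂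
  have hk1 : k ≠ 1 := by
    rintro rfl
    exact hγ (by simpa using hk')
  have hsat : ∀ u ∈ Γ, ∀ v, π u = π v → v ∈ Γ := by
    intro u hu v huv
    by_contra hv
    apply hk1
    refine hfaith k fun x => ?_
    obtain ⟨w, rfl⟩ := hsurj x
    by_cases hw : w ∈ Γ
    · obtain ⟨g, hg, rfl⟩ := hJ u hu w hw
      rw [hπ, huv, ← hπ, hg v hv, ← hπ, hk v hv]
    · rw [← hπ, hk w hw]
  set Γ' : Set X := π '' Γ with hΓ'
  have hpre : π ⁻¹' Γ' = Γ := by
    ext v
    constructor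
    · rintro ⟨u, hu, huv⟩
      exact hsat u hu v huv
    · exact fun hv => ⟨v, hv, rfl⟩
  have hout : ∀ g : G, (∀ z ∉ Γ, g • z = z) → ∀ x ∉ Γ', g • x = x := by
    intro g hg x hx
    obtain ⟨w, rfl⟩ := hsurj x
    rw [← hπ, hg w fun hw => hx ⟨w, hw, rfl⟩]
  have hJ' : JSet G Γ' := by
    rintro _ ⟨u, hu, rfl⟩ _ ⟨v, hv, rfl⟩
    obtain ⟨g, hg, rfl⟩ := hJ u hu v hv
    exact ⟨g, hout g hg, (hπ g u).symm⟩
  obtain ⟨a, ha⟩ : ∃ a : X, k • a ≠ a := by
    by_contra! h
    exact hk1 (hfaith k h)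
  have haΓ : a ∈ Γ' := by
    by_contra h
    exact ha (hout k hk a h)
  have h1' : 1 < Γ'.ncard :=
    (one_lt_ncard_iff (toFinite _)).2
      ⟨k • a, a, smul_mem_of_fix_compl (hout k hk) haΓ, haΓ, ha⟩
  have h2' : 2 * Γ'.ncard < Nat.card X := by
    have e1 := ncard_preimage_equivar π hπ a Γ'
    have e2 := ncard_preimage_equivar π hπ a univ
    rw [hpre] at e1
    rw [preimage_univ, ncard_univ, ncard_univ] at e2
    rw [e1, e2, ← mul_assoc] at h2
    exact lt_of_mul_lt_mul_right h2 (Nat.zero_le _)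
  have hA := alt_le_of_multi (JSet.marggraff _ rfl hJ' hX h1' h2')
  have hA' : ∀ σ : Perm X, sign σ = 1 → ∃ g : G, toPermHom G X g = σ := fun σ hσ =>
    hA (mem_alternatingGroup.2 hσ)
  have h3 : 2 < Γ'ᶜ.ncard := by
    have := ncard_add_ncard_compl Γ'
    omega
  obtain ⟨p, u, v, hp, hu, hv, hpu, hpv, huv⟩ := (two_lt_ncard_iff (toFinite _)).1 h3
  have hau : a ≠ u := fun h => hu (h ▸ haΓ)
  have hav : a ≠ v := fun h => hv (h ▸ haΓ)
  have hap : a ≠ p := fun h => hp (h ▸ haΓ)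
  let L : Subgroup G := fixingSubgroup G (π ⁻¹' {p})
  have hL : ∀ g : G, g ∈ L ↔ ∀ w, π w = p → g • w = w := fun g => mem_fixingSubgroup_iff G
  have hn : ∀ g : Perm X, sign g = 1 → g p = p → ∀ h ∈ L.map (toPermHom G X),
      g * h * g⁻¹ ∈ L.map (toPermHom G X) := by
    rintro g hg hgp _ ⟨h, hh, rfl⟩
    obtain ⟨g, rfl⟩ := hA' g hg
    refine ⟨g * h * g⁻¹, (hL _).2 fun w hw => ?_, by rw [map_mul, map_mul, map_inv]⟩
    have hgp' : g • p = p := hgp
    rw [mul_smul, mul_smul, (hL h).1 hh (g⁻¹ • w) (by rw [hπ, hw, inv_smul_eq_iff, hgp']),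
      smul_inv_smul]
  have hkL : toPermHom G X k ∈ L.map (toPermHom G X) := by
    refine ⟨k, (hL k).2 fun w hw => hk w fun hw' => hp ⟨w, hw', hw⟩, rfl⟩
  set y : Perm X := swap a u * swap a v with hy
  have hy3 : y.IsThreeCycle := isThreeCycle_swap_mul_swap_same hau hav huv
  have hyp : y p = p := by
    rw [hy, Perm.mul_apply, swap_apply_of_ne_of_ne hap.symm hpv,
      swap_apply_of_ne_of_ne hap.symm hpu]
  have hkp : toPermHom G X k p = p := hout k hk p hp
  have ht := isThreeCycle_commutator (x := toPermHom G X k) (y := y) (a := a) ha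
    (by
      rw [hy, Perm.mul_apply, swap_apply_left, swap_apply_of_ne_of_ne hav.symm huv.symm]
      exact hav.symm)
    (by
      intro z hz
      by_cases hzΓ : z ∈ Γ'
      · right
        have hzu : z ≠ u := fun h => hu (h ▸ hzΓ)
        have hzv : z ≠ v := fun h => hv (h ▸ hzΓ)
        rw [hy, Perm.mul_apply, swap_apply_of_ne_of_ne hz hzv, swap_apply_of_ne_of_ne hz hzu]
      · exact Or.inl (hout k hk z hzΓ))
  have htL : toPermHom G X k * y * (toPermHom G X k)⁻¹ * y⁻¹ ∈ L.map (toPermHom G X) := by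
    have := mul_mem hkL (hn y hy3.sign hyp _ (inv_mem hkL))
    simpa only [mul_assoc] using this
  have htp : (toPermHom G X k * y * (toPermHom G X k)⁻¹ * y⁻¹) p = p := by
    have e1 : y⁻¹ p = p := by rw [Perm.inv_eq_iff_eq, hyp]
    have e2 : (toPermHom G X k)⁻¹ p = p := by rw [Perm.inv_eq_iff_eq, hkp]
    rw [Perm.mul_apply, Perm.mul_apply, Perm.mul_apply, e1, e2, hyp, hkp]
  have hN : ((alternatingGroup X).comap (toPermHom G X)) ≠ ⊥ := by
    intro h
    obtain ⟨g, hg⟩ := hA' y hy3.sign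
    have : g ∈ (alternatingGroup X).comap (toPermHom G X) := by
      rw [Subgroup.mem_comap, hg]
      exact hy3.mem_alternatingGroup
    rw [h, Subgroup.mem_bot] at this
    rw [this, map_one] at hg
    exact hy3.ne_one hg.symm
  have htr := hqp _ inferInstance hN
  have hone : ∀ w w', π w = p → π w' = p → w = w' := by
    intro w w' hw hw'
    obtain ⟨⟨g, hg⟩, rfl⟩ := exists_smul_eq ((alternatingGroup X).comap (toPermHom G X)) w w'
    rw [Subgroup.mk_smul] at hw' ⊢
    have hgp : toPermHom G X g p = p := by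
      rw [hπ, hw] at hw'
      exact hw'
    obtain ⟨g', hg', e⟩ := mem_of_norm_three p _ hn ht htp htL (mem_alternatingGroup.1 hg) hgp
    rw [← hinj e, (hL g').1 hg' w hw]
  intro w w' hw
  obtain ⟨g, hg⟩ := exists_smul_eq G (π w) p
  exact smul_left_cancel g (hone _ _ (by rw [hπ, hg]) (by rw [hπ, ← hw, hg]))

theorem JSet.prim_of_quasi [Finite G] [Finite Ω] {Γ : Set Ω}
    (hqp : ∀ N : Subgroup G, N.Normal → N ≠ ⊥ → IsPretransitive N Ω) (hJ : JSet G Γ)
    (h1 : 1 < Γ.ncard) (h2 : 2 * Γ.ncard < Nat.card Ω) : IsPreprimitive G Ω := by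
  obtain ⟨a, b, ha, hb, hab⟩ := (one_lt_ncard_iff (toFinite _)).1 h1
  have : Nontrivial Ω := ⟨a, b, hab⟩
  obtain ⟨k, -, hk⟩ := hJ a ha b hb
  have hk' : k ∉ stabilizer G a := fun h => hab (h.symm.trans hk)
  have htop : (⊤ : Subgroup G) ≠ ⊥ := by
    intro h
    have : k ∈ (⊥ : Subgroup G) := h ▸ Subgroup.mem_top k
    rw [Subgroup.mem_bot] at this
    exact hk' (this ▸ one_mem _)
  have htr : IsPretransitive G Ω := ⟨fun x y => by
    obtain ⟨g, hg⟩ := (hqp ⊤ inferInstance htop).exists_smul_eq x y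
    exact ⟨g.1, hg⟩⟩
  have hne : stabilizer G a ≠ ⊤ := fun h => hk' (h ▸ Subgroup.mem_top k)
  obtain ⟨M, hM, hle⟩ := (eq_top_or_exists_le_coatom (stabilizer G a)).resolve_left hne
  have hnt : Nontrivial (G ⧸ M) := by
    obtain ⟨g, hg⟩ : ∃ g, g ∉ M := by
      by_contra! h
      exact hM.1 (eq_top_iff.2 fun g _ => h g)
    exact ⟨(1 : G), (g : G), fun h => hg (by simpa using QuotientGroup.eq.1 h)⟩
  have hprim : IsPreprimitive G (G ⧸ M) := by
    rw [← isCoatom_stabilizer_iff_preprimitive G ((1 : G) : G ⧸ M), stabilizer_quotient]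
    exact hM
  choose c hc using fun x : Ω => exists_smul_eq G a x
  have hπ : ∀ (g : G) ω, ((c (g • ω) : G) : G ⧸ M) = g • ((c ω : G) : G ⧸ M) := by
    intro g ω
    rw [Quotient.smul_mk, smul_eq_mul, QuotientGroup.eq]
    apply hle
    rw [mem_stabilizer_iff, mul_smul, mul_smul, hc, inv_smul_eq_iff, hc]
  have hinj := hJ.inj_of_quasi hqp h1 h2 hprim (fun ω => ((c ω : G) : G ⧸ M)) hπ
  rw [← isCoatom_stabilizer_iff_preprimitive G a]
  have : M ≤ stabilizer G a := by
    intro g hg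
    apply hinj
    have hca : c a ∈ M := hle (hc a)
    show ((c (g • a) : G) : G ⧸ M) = ((c a : G) : G ⧸ M)
    rw [hπ, Quotient.smul_mk, smul_eq_mul, QuotientGroup.eq]
    exact mul_mem (inv_mem (mul_mem hg hca)) hca
  rwa [le_antisymm hle this]

end

end H25
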