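import Mathlib

/-! A certificate that a finitely generated subgroup of `GL(2, p)` is regular on the non-zero
vectors. -/

set_option autoImplicit false

namespace H25

/-- A set containing `1` and closed under left multiplication by generators contains the
generated subgroup of a finite group. -/
theorem mem_of_closed_left {G : Type*} [Group G] [Finite G] (s S : Set G) (h1 : 1 ∈ S)
    (hS : ∀ g ∈ s, ∀ x ∈ S, g * x ∈ S) {h : G} (hh : h ∈ Subgroup.closure s) : h ∈ S := by
  have key : ∀ x ∈ S, h * x ∈ S := by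
    induction hh using Subgroup.closure_induction with
    | mem g hg => exact hS g hg
    | one => simp
    | mul a b _ _ ha hb => intro x hx; rw [mul_assoc]; exact ha _ (hb x hx)
    | inv a _ ha =>
      have hpow : ∀ n : ℕ, ∀ x ∈ S, a ^ n * x ∈ S := by
        intro n
        induction n with
        | zero => simp
        | succ n ih => intro x hx; rw [pow_succ', mul_assoc]; exact ha _ (ih x hx)
      have : a⁻¹ = a ^ (orderOf a - 1) := by
        rw [inv_eq_iff_mul_eq_one, ← pow_succ', Nat.sub_add_cancel (orderOf_pos a),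
          pow_orderOf_eq_one]
      rw [this]
      exact hpow _
  simpa using key 1 h1

/-- table lookup -/
def tab (T w i : ℕ) : ℕ := (T >>> (w * i)) % 2 ^ w

/-- The check of the certificate. -/
def regCheck (p T U D : ℕ) (gens : List (ℕ × ℕ × ℕ × ℕ)) : Bool :=
  (List.range p).all fun x => (List.range p).all fun y =>
    (x == 0 && y == 0) ||
    ((gens.all fun t =>
      tab T 8 ((t.1 * x + t.2.1 * y) % p * p + (t.2.2.1 * x + t.2.2.2 * y) % p) ==
        (t.1 * tab T 8 (x * p + y) + t.2.1 * tab U 8 (x * p + y)) % p &&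
      tab U 8 ((t.1 * x + t.2.1 * y) % p * p + (t.2.2.1 * x + t.2.2.2 * y) % p) ==
        (t.2.2.1 * tab T 8 (x * p + y) + t.2.2.2 * tab U 8 (x * p + y)) % p) &&
    ((x == 1 && y == 0) || gens.any fun t =>
      tab D 8 ((t.1 * x + t.2.1 * y) % p * p + (t.2.2.1 * x + t.2.2.2 * y) % p) <
        tab D 8 (x * p + y)))

theorem regular_of_cert (p T U D : ℕ) [Fact p.Prime] (gens : List (ℕ × ℕ × ℕ × ℕ))
    (hc : regCheck p T U D gens = true) (hT : tab T 8 p = 0) (hU : tab U 8 p = 1)
    (s : Set (Matrix.GeneralLinearGroup (Fin 2) (ZMod p)))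
    (hs : ∀ g ∈ s, ∃ t ∈ gens, (g : Matrix (Fin 2) (Fin 2) (ZMod p)) =
      !![(t.1 : ZMod p), (t.2.1 : ZMod p); (t.2.2.1 : ZMod p), (t.2.2.2 : ZMod p)])
    (hs' : ∀ t ∈ gens, ∃ g ∈ s, (g : Matrix (Fin 2) (Fin 2) (ZMod p)) =
      !![(t.1 : ZMod p), (t.2.1 : ZMod p); (t.2.2.1 : ZMod p), (t.2.2.2 : ZMod p)]) :
    Nat.card (Subgroup.closure s) = p ^ 2 - 1 ∧ ∀ v w : Fin 2 → ZMod p, v ≠ 0 → w ≠ 0 →
      ∃! h : Subgroup.closure s, Matrix.mulVec ((h : Matrix.GeneralLinearGroup (Fin 2) (ZMod p)) :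
        Matrix (Fin 2) (Fin 2) (ZMod p)) v = w := by
  have hp : p.Prime := Fact.out
  simp only [regCheck, List.all_eq_true, List.mem_range, Bool.or_eq_true, Bool.and_eq_true,
    beq_iff_eq, List.any_eq_true, decide_eq_true_eq] at hc
  have hval : ∀ (a b : ℕ) (x y : ZMod p), ((a : ZMod p) * x + b * y).val =
      (a * x.val + b * y.val) % p := by
    intro a b x y
    rw [← ZMod.val_natCast]
    simp
  have hmv : ∀ (g : Matrix.GeneralLinearGroup (Fin 2) (ZMod p)) (v : Fin 2 → ZMod p), v ≠ 0 →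
      Matrix.mulVec (g : Matrix (Fin 2) (Fin 2) (ZMod p)) v ≠ 0 := by
    intro g v hv h
    apply hv
    have := congrArg (Matrix.mulVec ((g⁻¹ : Matrix.GeneralLinearGroup (Fin 2) (ZMod p)) :
      Matrix (Fin 2) (Fin 2) (ZMod p))) h
    rwa [Matrix.mulVec_mulVec, Units.inv_mul, Matrix.one_mulVec, Matrix.mulVec_zero] at this
  have hne : ∀ v : Fin 2 → ZMod p, v ≠ 0 → ¬ ((v 0).val = 0 ∧ (v 1).val = 0) := by
    intro v hv h
    apply hv
    ext i
    fin_cases i
    · exact (ZMod.val_eq_zero _).1 h.1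
    · exact (ZMod.val_eq_zero _).1 h.2
  let e : Fin 2 → ZMod p := ![1, 0]
  have he : e ≠ 0 := fun h => one_ne_zero (congrFun h 0)
  have hcol : ∀ (g : Matrix (Fin 2) (Fin 2) (ZMod p)) (i : Fin 2), g.mulVec e i = g i 0 := by
    intro g i; simp [e, Matrix.mulVec, dotProduct]
  -- the second column is determined by the first one
  have hdet : ∀ h ∈ Subgroup.closure s,
      h.1 0 1 = (tab T 8 ((h.1 0 0).val * p + (h.1 1 0).val) : ZMod p) ∧
      h.1 1 1 = (tab U 8 ((h.1 0 0).val * p + (h.1 1 0).val) : ZMod p) := by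
    intro h hh
    refine mem_of_closed_left s {h | h.1 0 1 = (tab T 8 ((h.1 0 0).val * p + (h.1 1 0).val) : ZMod p)
      ∧ h.1 1 1 = (tab U 8 ((h.1 0 0).val * p + (h.1 1 0).val) : ZMod p)} ?_ ?_ hh
    · simp [ZMod.val_one, hT, hU]
    · rintro g hg x ⟨hx1, hx2⟩
      obtain ⟨t, ht, hgt⟩ := hs g hg
      have h0 := hne _ (hmv x e he)
      rw [hcol, hcol] at h0
      obtain ⟨h1, h2⟩ := ((hc _ (ZMod.val_lt (x.1 0 0)) _ (ZMod.val_lt (x.1 1 0))).resolve_left h0).1
        t ht
      simp only [Set.mem_ofPred_eq, Units.val_mul, hgt, Matrix.mul_apply, Fin.sum_univ_two,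
        Matrix.of_apply, Matrix.cons_val', Matrix.cons_val_zero, Matrix.cons_val_one,
        Matrix.cons_val_fin_one, hval, h1, h2, hx1, hx2]
      simp
  have hinj : ∀ h k : Subgroup.closure s, h.1.1.mulVec e = k.1.1.mulVec e → h = k := by
    intro h k hk
    have h0 := congrFun hk 0
    have h1 := congrFun hk 1
    rw [hcol, hcol] at h0 h1
    apply Subtype.ext; apply Units.ext
    ext i j
    fin_cases i <;> fin_cases j
    · exact h0
    · exact (hdet h h.2).1.trans (by rw [h0, h1]; exact (hdet k k.2).1.symm)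
    · exact h1
    · exact (hdet h h.2).2.trans (by rw [h0, h1]; exact (hdet k k.2).2.symm)
  have hsurj : ∀ v : Fin 2 → ZMod p, v ≠ 0 → ∃ h : Subgroup.closure s, h.1.1.mulVec e = v := by
    intro v hv
    induction hn : tab D 8 ((v 0).val * p + (v 1).val) using Nat.strong_induction_on
      generalizing v with
    | h n ih =>
    rcases ((hc _ (ZMod.val_lt (v 0)) _ (ZMod.val_lt (v 1))).resolve_left (hne v hv)).2 with
      h | ⟨t, ht, hlt⟩
    · refine ⟨1, ?_⟩
      ext i
      fin_cases i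
      · simpa [e] using ((ZMod.val_eq_one hp.one_lt _).1 h.1).symm
      · simpa [e] using ((ZMod.val_eq_zero _).1 h.2).symm
    · obtain ⟨g, hg, hgt⟩ := hs' t ht
      obtain ⟨h, hh⟩ := ih _ (hn ▸ hlt) (g.1.mulVec v) (hmv g v hv) (by
        simp [hgt, Matrix.mulVec, dotProduct, hval])
      refine ⟨⟨g, Subgroup.subset_closure hg⟩⁻¹ * h, ?_⟩
      simp only [Subgroup.coe_mul, InvMemClass.coe_inv, Units.val_mul, ← Matrix.mulVec_mulVec, hh]
      rw [Matrix.mulVec_mulVec, Units.inv_mul, Matrix.one_mulVec]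
  constructor
  · have hb : Function.Bijective fun h : Subgroup.closure s =>
        (⟨h.1.1.mulVec e, hmv _ e he⟩ : {v : Fin 2 → ZMod p // v ≠ 0}) :=
      ⟨fun h k hk => hinj h k (congrArg Subtype.val hk),
        fun v => (hsurj v v.2).imp fun h hh => Subtype.ext hh⟩
    rw [Nat.card_congr (Equiv.ofBijective _ hb), Nat.card_eq_fintype_card]
    simp
  · intro v w hv hw
    obtain ⟨a, rfl⟩ := hsurj v hv
    obtain ⟨b, rfl⟩ := hsurj w hw
    refine ⟨b * a⁻¹, ?_, fun h hh => ?_⟩
    · simp only [Matrix.mulVec_mulVec, ← Units.val_mul, ← Subgroup.coe_mul, inv_mul_cancel_right]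
    · rw [eq_mul_inv_iff_mul_eq]
      apply hinj
      rw [← hh, Matrix.mulVec_mulVec]
      rfl

end H25
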