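import Mathlib

/-! Singer groups. -/

set_option autoImplicit false

namespace H25

variable {F K : Type*} [Field F] [Field K] [Algebra F K]

variable (F K) in
/-- The Singer group of multiplications by non-zero elements of `K`. -/
abbrev singer : Subgroup (Module.End F K)ˣ :=
  (Units.map ((Algebra.lmul F K : K →ₐ[F] Module.End F K) : K →* Module.End F K)).range

theorem unit_apply_ne_zero {V : Type*} [AddCommGroup V] [Module F V] (g : (Module.End F V)ˣ)
    {x : V} (hx : x ≠ 0) : g.1 x ≠ 0 := by
  intro h
  apply hx
  have := congrArg (g⁻¹).1 h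
  rwa [← Module.End.mul_apply, Units.inv_mul, map_zero] at this

theorem unit_inv_apply {V : Type*} [AddCommGroup V] [Module F V] (g : (Module.End F V)ˣ)
    (x : V) : (g⁻¹).1 (g.1 x) = x := by
  rw [← Module.End.mul_apply, Units.inv_mul]; rfl

theorem unit_apply_inv {V : Type*} [AddCommGroup V] [Module F V] (g : (Module.End F V)ˣ)
    (x : V) : g.1 ((g⁻¹).1 x) = x := by
  rw [← Module.End.mul_apply, Units.mul_inv]; rfl

theorem mem_singer {g : (Module.End F K)ˣ} : g ∈ singer F K ↔ ∃ a : K, ∀ x, g.1 x = a * x := by
  constructor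
  · rintro ⟨a, rfl⟩
    exact ⟨a, fun x => rfl⟩
  · rintro ⟨a, ha⟩
    have h0 : a ≠ 0 := by
      have := unit_apply_ne_zero g (one_ne_zero (α := K))
      rwa [ha, mul_one] at this
    refine ⟨Units.mk0 a h0, Units.ext (LinearMap.ext fun x => ?_)⟩
    rw [ha]; rfl

theorem singer_map_injective : Function.Injective
    (Units.map ((Algebra.lmul F K : K →ₐ[F] Module.End F K) : K →* Module.End F K)) :=
  Units.map_injective (Algebra.lmul_injective (R := F) (A := K))

theorem card_singer [Fintype K] : Nat.card (singer F K) = Fintype.card K - 1 := by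
  classical
  rw [← Nat.card_congr (MonoidHom.ofInjective singer_map_injective).toEquiv, Nat.card_units,
    Nat.card_eq_fintype_card]

/-- The multiplication by a non-zero element. -/
def sing (a : K) (ha : a ≠ 0) : (Module.End F K)ˣ :=
  Units.map ((Algebra.lmul F K : K →ₐ[F] Module.End F K) : K →* Module.End F K) (Units.mk0 a ha)

@[simp] theorem sing_apply (a : K) (ha : a ≠ 0) (x : K) :
    (sing a ha : (Module.End F K)ˣ).1 x = a * x := rfl

theorem sing_mem (a : K) (ha : a ≠ 0) : sing a ha ∈ singer F K := ⟨_, rfl⟩

theorem centralizer_singer : Subgroup.centralizer (singer F K : Set (Module.End F K)ˣ) =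
    singer F K := by
  ext g
  rw [Subgroup.mem_centralizer_iff]
  constructor
  · intro h
    refine mem_singer.2 ⟨g.1 1, fun x => ?_⟩
    by_cases hx : x = 0
    · simp [hx]
    have := congrArg (fun u : (Module.End F K)ˣ => u.1 1) (h _ (sing_mem x hx))
    simp only [Units.val_mul, Module.End.mul_apply, sing_apply, mul_one] at this
    rw [← this, mul_comm]
  · intro hg h hh
    obtain ⟨a, ha⟩ := mem_singer.1 hg
    obtain ⟨b, hb⟩ := mem_singer.1 hh
    ext x
    simp [ha, hb, mul_left_comm]

/-- Elements normalising the Singer group are semilinear. -/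
theorem mem_normalizer_singer {g : (Module.End F K)ˣ} :
    g ∈ Subgroup.normalizer (singer F K : Set (Module.End F K)ˣ) ↔
      ∃ (c : K) (σ : K ≃ₐ[F] K), ∀ x, g.1 x = c * σ x := by
  constructor
  · intro hg
    have h1 : g.1 1 ≠ 0 := unit_apply_ne_zero g one_ne_zero
    have hmul : ∀ a x, g.1 (a * x) * g.1 1 = g.1 a * g.1 x := by
      intro a x
      by_cases ha : a = 0
      · simp [ha]
      obtain ⟨b, hb⟩ := mem_singer.1 ((Subgroup.mem_normalizer_iff.1 hg _).1 (sing_mem a ha))
      have hb' : ∀ y, g.1 (a * y) = b * g.1 y := fun y => by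
        simpa [unit_inv_apply] using hb (g.1 y)
      have := hb' 1
      rw [mul_one] at this
      rw [hb', this]; ring
    let φ : K →ₐ[F] K :=
      { toFun := fun x => (g.1 1)⁻¹ * g.1 x
        map_one' := inv_mul_cancel₀ h1
        map_mul' := fun a x => by
          field_simp
          linear_combination hmul a x
        map_zero' := by simp
        map_add' := fun a x => by simp [mul_add]
        commutes' := fun r => by
          rw [Algebra.algebraMap_eq_smul_one, map_smul, mul_smul_comm, inv_mul_cancel₀ h1] }
    refine ⟨g.1 1, AlgEquiv.ofBijective φ ⟨φ.toRingHom.injective, fun y =>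
      ⟨(g⁻¹).1 (g.1 1 * y), ?_⟩⟩, fun x => ?_⟩
    · simp [φ, unit_apply_inv, h1]
    · exact (mul_inv_cancel_left₀ h1 _).symm
  · rintro ⟨c, σ, h⟩
    have hc : c ≠ 0 := by
      have := unit_apply_ne_zero g (one_ne_zero (α := K))
      rwa [h, map_one, mul_one] at this
    rw [Subgroup.mem_normalizer_iff]
    intro u
    simp only [SetLike.mem_coe, mem_singer]
    constructor
    · rintro ⟨a, ha⟩
      refine ⟨σ a, fun x => ?_⟩
      conv_rhs => rw [← unit_apply_inv g x]
      simp only [Units.val_mul, Module.End.mul_apply, ha, h, map_mul]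
      ring
    · rintro ⟨a, ha⟩
      refine ⟨σ.symm a, fun x => ?_⟩
      have := ha (g.1 x)
      simp only [Units.val_mul, Module.End.mul_apply, unit_inv_apply] at this
      rw [h, h] at this
      apply σ.injective
      rw [map_mul, AlgEquiv.apply_symm_apply]
      apply mul_left_cancel₀ hc
      rw [this]; ring

end H25
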